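import Cfsg.Agent.L.J3S
import Cfsg.Agent.H12.SL2Pres
import Cfsg.Agent.H09.SLBasic

/-! The third Janko group (namespace L.J3S): `elts` (elements of order 17 and 19), `sl16`. -/

set_option autoImplicit false

namespace L.J3S
open H13 H15 H15.J3 Cfsg Subgroup
open H27.MG (opT FC)
open H27.U34 (AT MT)

theorem sl16_aux (K : Type) [Field K] [Fintype K] (hK : Fintype.card K = 16) {G : Type*} [Group G] (T : Sem G mul one wf)
    (h0 : ∀ c ∈ lc5, T.ok c) (I : Inj T zs) (H : Subgroup G) (hm : ∀ l < 8, T.gen lc5 l ∈ H) (hH : Nat.card H = 8160) :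
    ∃ N : Subgroup H, N.index = 2 ∧ Nonempty (N ≃* Matrix.SpecialLinearGroup (Fin 2) K) := by
  classical
  have o := Sem.ok_of_slp _ h0 e16_so
  have ok : ∀ a, T.ok (cx a) := nthD_prop T.ok_one o
  have mem : ∀ a, T.val (cx a) ∈ H := fun a => by
    rw [show T.val (cx a) = _ from Sem.gen_slp _ h0 e16_so a]
    refine evalW_mem fun l hl => hm l ?_
    refine nthD_prop (p := fun u : List ℕ => ∀ l ∈ u, l < 8) (by simp) ?_ a l hl
    rw [mapR_eq]
    exact List.forall_mem_map.2 fun e he l hl => by simpa using allL_iff.1 (allL_iff.1 e16_w e he) l hl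
  obtain ⟨D⟩ := FC.table K hK H27.U34.fok
  have sur : ∀ u : K, ∃ a < 16, D.el a = u := fun u => by
    obtain ⟨a, ha⟩ := ((Nat.bijective_iff_injective_and_card (fun a : Fin 16 => D.el a)).2
      ⟨fun a b e => Fin.ext (D.inj _ a.2 _ b.2 e), by simp [hK]⟩).2 u
    exact ⟨a, a.2, ha⟩
  choose c c1 c2 using sur
  have c3 : ∀ a < 16, c (D.el a) = a := fun a ha => D.inj _ (c1 _) _ ha (c2 _)
  have cad : ∀ u v, c (u + v) = opT 16 4 AT (c u) (c v) := fun u v => by
    rw [← c3 _ (D.ad_lt _ _), D.el_ad, c2, c2]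
  have cmu : ∀ u v, c (u * v) = opT 16 4 MT (c u) (c v) := fun u v => by
    rw [← c3 _ (D.mu_lt _ _), D.el_mu, c2, c2]
  have ng : ∀ u : K, -u = u := fun u => neg_eq_of_add_eq_zero_left (by
    rw [← c2 (u + u), cad, (e16_c.1 _ (c1 u)).1, D.el0])
  have n0 : ∀ u : K, u ≠ 0 → c u ≠ 0 := fun u hu e => hu (by rw [← c2 u, e, D.el0])
  have civ : ∀ u : K, u ≠ 0 → c u⁻¹ = iv (c u) := fun u hu => by
    obtain ⟨-, a, b⟩ := e16_c.1 _ (c1 u)
    rw [← c3 _ a]
    congr 1
    exact inv_eq_of_mul_eq_one_right (by rw [← D.el1, ← b (n0 u hu), D.el_mu, c2])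
  have ea := fun u v => band_eq_true.1 (allLt_iff.1 (allLt_iff.1 e16_a _ (c1 u)) _ (c1 v))
  have R : H12.SL2Rel (fun u => (⟨_, mem (c u)⟩ : H)) fun u => ⟨_, mem (16 + c u)⟩ := by
    refine ⟨fun u v => Subtype.ext ?_, fun u v => Subtype.ext ?_, fun u v hu => ?_⟩
    · change T.val _ = T.val _ * T.val _
      rw [cad, Nat.eq_of_beq_eq_true (ea u v).1, T.val_mul (ok _) (ok _)]
    · change T.val _ = T.val _ * T.val _
      rw [cad, Nat.eq_of_beq_eq_true (ea u v).2, T.val_mul (ok _) (ok _)]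
    · have e := allLt_iff.1 e16_b _ (c1 u)
      simp only [bor_eq_true, force_eq, allLt_iff, Nat.beq_eq] at e
      have e := congrArg T.val (e.resolve_left (n0 u hu) _ (c1 v))
      have w := T.ok_mul (T.ok_mul (ok (c u)) (ok (16 + iv (c u)))) (ok (c u))
      rw [T.val_mul w (ok _), T.val_mul (ok _) w, T.val_mul (T.ok_mul (ok _) (ok _)) (ok _), T.val_mul (ok _) (ok _)] at e
      rw [mul_inv_eq_iff_eq_mul]
      apply Subtype.ext
      simp only [H12.wEl, coe_mul, ng, pow_two, cmu, civ u hu]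
      exact e
  obtain ⟨φ, h, -⟩ := R.exists_hom R.h_mul_of_finite
  have hZ : center (Matrix.SpecialLinearGroup (Fin 2) K) = ⊥ := card_eq_one.1 (by rw [H09.card_center_SL, hK]; rfl)
  have := H09.PSL_simple_fin (F := K) 2 le_rfl fun _ => by omega
  have : IsSimpleGroup (Matrix.SpecialLinearGroup (Fin 2) K) :=
    ((QuotientGroup.quotientMulEquivOfEq hZ).trans QuotientGroup.quotientBot).symm.isSimpleGroup
  have i : Function.Injective φ := by
    rw [← MonoidHom.ker_eq_bot_iff]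
    refine φ.normal_ker.eq_bot_or_eq_top.resolve_right fun e => e16_c.2 ((I _ (ok 1)).1 ?_)
    have := congrArg Subtype.val ((h 1).symm.trans (e ▸ mem_top _ : _ ∈ φ.ker))
    rwa [← D.el1, c3 1 (by norm_num)] at this
  refine ⟨φ.range, ?_, ⟨(MonoidHom.ofInjective i).symm⟩⟩
  have b := φ.range.index_mul_card
  rw [← Nat.card_congr (MonoidHom.ofInjective i).toEquiv, H09.card_SL_two, hK, hH] at b
  omega

theorem sl16_mdl (K : Type) [Field K] [Fintype K] (hK : Fintype.card K = 16) {R : Type*} {ι : Type} [CommRing R] [Fintype ι]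
    [DecidableEq ι] (V : VCod R ι 9 18 app wfT) (h2 : V.mat one = 1) :
    ∃ (H : Subgroup (mdl (g V h2) dom5 ⧸ center (mdl (g V h2) dom5))) (N : Subgroup H),
      N.index = 2 ∧ Nonempty (N ≃* Matrix.SpecialLinearGroup (Fin 2) K) := by
  have := fin5 V h2
  have C := cov V h2
  have hπ := QuotientGroup.mk'_surjective (Subgroup.center (mdl (g V h2) dom5))
  have L := (L5 V h2).map hπ
  have I := C.inj (zs := zs) ((sinj _ _).sub _) (L5 _ _) (by decide +kernel)
  have a := Subgroup.index_mul_card ((QuotientGroup.mk' (center (mdl (g V h2) dom5))).comp (incl _ sub45)).range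
  rw [C.idx, C.card] at a
  have b := Nat.eq_of_mul_eq_mul_left (by norm_num : 0 < 6156) (a.trans (by norm_num : 50232960 = 6156 * 8160))
  clear a
  refine ⟨_, sl16_aux K hK _ L.ok I
    ((QuotientGroup.mk' (center (mdl (g V h2) dom5))).comp (incl _ sub45)).range (fun l hl => ?_) b⟩
  clear b
  have m : l / 2 ∈ dom4 := (by decide : ∀ l < 8, l / 2 ∈ dom4) l hl
  have : QuotientGroup.mk' _ (mgen (g V h2) dom5 (l / 2)) ∈
      ((QuotientGroup.mk' (center (mdl (g V h2) dom5))).comp (incl _ sub45)).range :=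
    ⟨mgen (g V h2) dom4 (l / 2), by rw [MonoidHom.comp_apply, incl_mgen _ sub45 _ m]⟩
  refine (L.base l (hl.trans (by norm_num)) ((by decide : ∀ l < 8, l / 2 ∈ dom5) l hl)).symm ▸ ?_
  unfold sg
  split_ifs
  exacts [this, inv_mem this]

variable {F : Type*} [Field F] [Fintype F] (hF : Fintype.card F = 4) {ω : F} (hω : ω ^ 2 + ω + 1 = 0)
include hF hω

theorem elts : ∃ y x n : Spor.J3 F ω, orderOf y = 17 ∧ (∀ g, g * y = y * g → g ∈ zpowers y) ∧ orderOf x = 19 ∧
    n * x = x ^ 4 * n := by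
  have t := two_eq hF
  unfold Spor.J3
  rw [three_eq t hω]
  have := fin5 _ (hh e9 t hω)
  have C := cov _ (hh e9 t hω)
  have hπ := QuotientGroup.mk'_surjective (Subgroup.center (mdl (g _ (hh e9 t hω)) dom5))
  have L := (L5 _ (hh e9 t hω)).map hπ
  have I := C.inj (zs := zs) ((sinj _ _).sub _) (L5 _ _) (by decide +kernel)
  have A := Aq _ _ hπ C.ker.le
  have a := rig1_spec I (Sem.ok_of_slp _ L.ok es_so) o_1
  have b := rig1_spec I (Sem.ok_of_slp _ L.ok e19_so) e19_r
  have : Fact (Nat.Prime 17) := ⟨by norm_num⟩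
  have : Fact (Nat.Prime 19) := ⟨by norm_num⟩
  refine ⟨_, _, _, orderOf_eq_prime a.1 a.2.1, fun x hx => ?_, orderOf_eq_prime b.1 b.2.1, b.2.2.2.1⟩
  obtain ⟨y, hy, e⟩ := L.cent A ba_c (C.card.trans ba_p.symm).le es_so ba_b ba_a x hx
  rwa [List.mem_singleton.1 hy, Sem.gen_slp _ L.ok es_so 3, o_n.1.2.2, evalW_nil, inv_one, mul_one] at e

theorem sl16 (K : Type) [Field K] [Fintype K] (hK : Fintype.card K = 16) : ∃ (H : Subgroup (Spor.J3 F ω)) (N : Subgroup H),
    N.index = 2 ∧ Nonempty (N ≃* Matrix.SpecialLinearGroup (Fin 2) K) := by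
  have t := two_eq hF
  unfold Spor.J3
  rw [three_eq t hω]
  exact sl16_mdl K hK _ (hh e9 t hω)

end L.J3S
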