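import Cfsg.Agent.H27.PKx
import Cfsg.Agent.H14.PK4

/-! Permutation kit: orders of normalisers (namespace L.PK). `nrmT_iff`, `card_norm`, `in_comap_of`. -/

set_option autoImplicit false

namespace L.PK
open H13 H14.PK H14.PK.TS

variable {G : Type*} [Group G] {w n : ℕ} {S : TS G w n}

/-- the table normalises the group generated by `Ns` (with chain `cp`) -/
noncomputable def nrmT (w n : ℕ) (Ns : List ℕ) (cp : Ch) (T : ℕ) : Bool :=
  allL (fun a => siftC w n cp (cjT w n T a)) Ns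

theorem nrmT_iff {Ns : List ℕ} {cp : Ch} (hN : ∀ t ∈ Ns, S.In ⊤ t) (hp : S.Full (S.cl Ns) cp) (x : G) :
    nrmT w n Ns cp (S.tb x) = true ↔ x ∈ Subgroup.normalizer (S.cl Ns : Set G) := by
  rw [nrmT, allL_iff]
  have e : ∀ a ∈ Ns, (siftC w n cp (cjT w n (S.tb x) a) = true ↔ x * S.el a * x⁻¹ ∈ S.cl Ns) := fun a ha => by
    rw [← hp.siftC_iff, tb_cj, (hN a ha).tb_el]
  refine ⟨fun h => mem_normalizer_cl fun a ha => (e a ha).1 (h a ha), fun h a ha => (e a ha).2 ?_⟩
  exact (Subgroup.mem_normalizer_iff.1 h _).1 ((hN a ha).cl ha).el_mem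

/-- the number of elements that normalise -/
noncomputable def nrmN (w n A : ℕ) (bs Ns Bs : List ℕ) (cp ch : Ch) : ℕ :=
  sumL (fun B => esum w n (prC w A (ti w n A) B) (fun f => Bool.rec (nat_lit 0) (nat_lit 1)
    (band (trF w bs A B f) (force (mkT w n f) (nrmT w n Ns cp)))) ch 0 (idv w n) (idv w n)) Bs

theorem card_norm {ch cp : Ch} {bs Ns Bs : List ℕ} {A N : ℕ} (h : S.Full ⊤ ch) (hb : S.Base bs)
    (hN : ∀ t ∈ Ns, S.In ⊤ t) (hp : S.Full (S.cl Ns) cp) (hA : A ∈ Ns) (hB : ∀ t ∈ Bs, S.In ⊤ t) (nd : Bs.Nodup)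
    (e : band (eallT w n (fun T => memL T Bs) cp) (Nat.beq (nrmN w n A bs Ns Bs cp ch) N) = true) :
    Nat.card (Subgroup.normalizer (S.cl Ns : Set G)) = N := by
  classical
  have := S.finite
  have := Fintype.ofFinite G
  obtain ⟨e1, e2⟩ := band_eq_true.1 e
  have ha := hN A hA
  have m := hp.allT (Q := fun x => S.tb x ∈ Bs) (fun x c => memL_iff.1 c) e1
  rw [← Nat.eq_of_beq_eq_true e2, nrmN, sumL_eq, ← List.sum_toFinset _ nd, Nat.card_eq_fintype_card,
    Fintype.card_subtype, Finset.card_eq_sum_card_fiberwise (t := Bs.toFinset) (f := fun x => S.tb (x * S.el A * x⁻¹))]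
  · refine Finset.sum_congr rfl fun B hB' => ?_
    have hc := hB B (List.mem_toFinset.1 hB')
    have := h.count (P := fun x => x * S.el A = S.el B * x ∧ x ∈ Subgroup.normalizer (S.cl Ns : Set G))
      (pr := prC w A (ti w n A) B) (lf := fun f => band (trF w bs A B f) (force (mkT w n f) (nrmT w n Ns cp)))
      (fun x F v b q a c d => by rw [← ha.tb_el, ← hc.tb_el] at c; exact prC_spec a c d.1)
      (fun x f hf => by
        rw [band_eq_true, force_eq, mkT_eq hf, nrmT_iff hN hp, ← trF_iff hb hf, ha.tb_el, hc.tb_el]) (Nat.beq_refl _)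
    rw [← this, ← Set.ncard_coe_finset]
    congr 1; ext x
    simp only [Finset.coe_filter, Finset.mem_filter, Finset.mem_univ, true_and, Set.mem_setOf_eq, Subgroup.mem_top]
    rw [and_comm, ← hc.tb_el, S.tb_eq_iff, hc.tb_el, mul_inv_eq_iff_eq_mul]
  · intro x hx
    exact List.mem_toFinset.2 (m _ ((Subgroup.mem_normalizer_iff.1 (Finset.mem_filter.1 hx).2 _).1 (ha.cl hA).el_mem))

/-- membership in the image by sifting -/
theorem in_comap_of {H : Type*} [Group H] {f : H →* G} {hf : Function.Injective f} {ch : Ch}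
    (h : (S.comap f hf).Full ⊤ ch) {T : ℕ} (hT : S.In ⊤ T) (e : siftC w n ch T = true) : (S.comap f hf).In ⊤ T :=
  in_comap.2 (In.of_siftC (fun l hl t ht => in_comap.1 (h.mem l hl t ht)) hT e)

end L.PK
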