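import Cfsg.Agent.L.SLRep

/-!
# Generation of `SL_n(q)` by a cyclic element and transvections in good position (`L.RU`)
-/

namespace L.RU

open Matrix L.SR

variable {n : ℕ} {F : Type*} [Field F]

variable (n F) in
abbrev SLn := Matrix.SpecialLinearGroup (Fin n) F

variable (n F) in
/-- standard basis vectors, indexed by `ℕ` -/
def e (k : ℕ) : Fin n → F := fun i => if (i : ℕ) = k then 1 else 0

theorem e_dot (k : ℕ) (hk : k < n) (y : Fin n → F) : e n F k ⬝ᵥ y = y ⟨k, hk⟩ := by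
  rw [dotProduct, Finset.sum_eq_single ⟨k, hk⟩]
  · simp [e]
  · intro i _ hi
    have : (i : ℕ) ≠ k := fun h => hi (Fin.ext h)
    simp [e, this]
  · simp

theorem dot_e (k : ℕ) (hk : k < n) (y : Fin n → F) : y ⬝ᵥ e n F k = y ⟨k, hk⟩ := by
  rw [dotProduct_comm, e_dot]

theorem e_dot_e (k l : ℕ) (hk : k < n) : e n F k ⬝ᵥ e n F l = if k = l then 1 else 0 := by
  rw [e_dot k hk]; rfl

theorem e_eq_single (i : Fin n) : e n F i = Pi.single i 1 := by
  ext j
  by_cases h : j = i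
  · subst h; simp [e]
  · have : (j : ℕ) ≠ i := fun h' => h (Fin.ext h')
    simp [e, this, h]

/-- `x` shifts the basis and has `±1` in the corner -/
structure Cyc (x : SLn n F) : Prop where
  shift : ∀ k, k + 1 < n → x • e n F k = e n F (k + 1)
  sgn : e n F (n - 1) ⬝ᵥ x⁻¹ • e n F 0 = 1 ∨ e n F (n - 1) ⬝ᵥ x⁻¹ • e n F 0 = -1

def b (x : SLn n F) (k : ℤ) : Fin n → F := x ^ k • e n F 0

def ph (x : SLn n F) (k : ℤ) : Fin n → F := cov (x ^ k) (e n F (n - 1))

def C (x : SLn n F) (m : ℤ) : F := e n F (n - 1) ⬝ᵥ x ^ m • e n F 0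

theorem ph_dot (x : SLn n F) (j : ℤ) (y : Fin n → F) : ph x j ⬝ᵥ y = e n F (n - 1) ⬝ᵥ x ^ (-j) • y := by
  rw [ph, cov_dot, _root_.zpow_neg]

theorem ph_b (x : SLn n F) (j k : ℤ) : ph x j ⬝ᵥ b x k = C x (k - j) := by
  rw [ph_dot, b, ← mul_smul, ← _root_.zpow_add, C, neg_add_eq_sub]

theorem ph_zero (x : SLn n F) : ph x 0 = e n F (n - 1) := dot_ext fun y => by
  rw [ph_dot, neg_zero, zpow_zero, one_smul]

theorem smul_b (x : SLn n F) (m k : ℤ) : x ^ m • b x k = b x (m + k) := by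
  rw [b, b, ← mul_smul, ← _root_.zpow_add]

theorem cov_smul (g : SLn n F) (a : F) (φ : Fin n → F) : cov g (a • φ) = a • cov g φ :=
  dot_ext fun y => by rw [cov_dot, smul_dotProduct, smul_dotProduct, cov_dot]

theorem cov_ph (x : SLn n F) (m j : ℤ) : cov (x ^ m) (ph x j) = ph x (m + j) := dot_ext fun y => by
  rw [cov_dot, ph_dot, ph_dot, ← mul_smul, ← _root_.zpow_neg, ← _root_.zpow_add]
  congr 3; ring

noncomputable def T (x : SLn n F) (k j : ℤ) (a : F) : SLn n F := tvS (b x k) (a • ph x j)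

namespace Cyc

variable {x : SLn n F} (h : Cyc x)
include h

theorem b_nat : ∀ k : ℕ, k < n → b x k = e n F k
  | 0, _ => by simp [b]
  | k + 1, hk => by
    rw [← h.shift k hk, ← b_nat k (by omega), Nat.cast_succ, add_comm, ← smul_b, zpow_one]

theorem C_zero {m : ℤ} (h0 : 0 ≤ m) (h1 : m + 2 ≤ n) : C x m = 0 := by
  obtain ⟨k, rfl⟩ := Int.eq_ofNat_of_zero_le h0
  have := h.b_nat k (by omega)
  rw [b] at this
  rw [C, this, e_dot_e _ _ (by omega), if_neg (by omega)]

theorem C_top {m : ℤ} (h0 : 0 ≤ m) (h1 : m + 1 = n) : C x m = 1 := by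
  obtain ⟨k, rfl⟩ := Int.eq_ofNat_of_zero_le h0
  have := h.b_nat k (by omega)
  rw [b] at this
  rw [C, this, e_dot_e _ _ (by omega), if_pos (by omega)]

theorem C_neg : C x (-1) = 1 ∨ C x (-1) = -1 := by
  rw [C, _root_.zpow_neg, zpow_one]; exact h.sgn

theorem val {k j : ℤ} (h0 : j ≤ k) (h1 : k + 2 ≤ j + n) (a : F) : (a • ph x j) ⬝ᵥ b x k = 0 := by
  rw [smul_dotProduct, ph_b, h.C_zero (by omega) (by omega), smul_zero]

theorem T_conj {k j : ℤ} (h0 : j ≤ k) (h1 : k + 2 ≤ j + n) (a : F) (m : ℤ) :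
    x ^ m * T x k j a * (x ^ m)⁻¹ = T x (m + k) (m + j) a := by
  rw [T, tvS_conj _ (h.val h0 h1 a), smul_b, cov_smul, cov_ph, T]

theorem T_add {k j : ℤ} (h0 : j ≤ k) (h1 : k + 2 ≤ j + n) (a a' : F) :
    T x k j (a + a') = T x k j a * T x k j a' := by
  rw [T, add_smul, tvS_add (h.val h0 h1 a) (h.val h0 h1 a'), T, T]

omit h in
theorem T_zero (k j : ℤ) : T x k j 0 = 1 := by rw [T, zero_smul, tvS_zero]

variable {G : Subgroup (SLn n F)}

theorem T_neg {k j : ℤ} (h0 : j ≤ k) (h1 : k + 2 ≤ j + n) {a : F} (ha : T x k j a ∈ G) :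
    T x k j (-a) ∈ G := by
  have : T x k j (-a) * T x k j a = 1 := by rw [← h.T_add h0 h1, neg_add_cancel, T_zero]
  rw [eq_inv_of_mul_eq_one_left this]; exact inv_mem ha

theorem T_shift (hx : x ∈ G) {k j k' j' : ℤ} (h0 : j ≤ k) (h1 : k + 2 ≤ j + n) {a : F}
    (ha : T x k j a ∈ G) (hk : k' - j' = k - j) : T x k' j' a ∈ G := by
  have := h.T_conj h0 h1 a (k' - k)
  rw [show k' - k + k = k' by ring, show k' - k + j = j' by omega] at this
  rw [← this]
  exact mul_mem (mul_mem (zpow_mem hx _) ha) (inv_mem (zpow_mem hx _))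

theorem T_comm {k j l i : ℤ} (h0 : j ≤ k) (h1 : k + 2 ≤ j + n) (h2 : i ≤ l) (h3 : l + 2 ≤ i + n)
    (h4 : i ≤ k) (h5 : k + 2 ≤ i + n) {a a' : F} (ha : T x k j a ∈ G) (ha' : T x l i a' ∈ G) :
    T x k i (a * C x (l - j) * a') ∈ G := by
  have := tvS_comm (h.val h0 h1 a) (h.val h2 h3 a') (h.val h4 h5 a')
  rw [tvS_smul_left _ (h.val h4 h5 a'), smul_dotProduct, ph_b, smul_smul, smul_eq_mul] at this
  have h6 : T x k i (a * C x (l - j) * a') = T x k j a * T x l i a' * (T x l i a' * T x k j a)⁻¹ := by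
    rw [eq_mul_inv_iff_mul_eq]; exact this.symm
  rw [h6]
  exact mul_mem (mul_mem ha ha') (inv_mem (mul_mem ha' ha))

theorem up (hx : x ∈ G) {d : ℤ} (h0 : 0 ≤ d) (h1 : d + 3 ≤ n) {a a' : F} (ha : T x 0 0 a ∈ G)
    (ha' : T x d 0 a' ∈ G) : T x (d + 1) 0 (a * a') ∈ G := by
  have := h.T_comm (k := d + 1) (j := d + 1) (l := d) (i := 0) le_rfl (by omega) h0 (by omega)
    (by omega) (by omega) (h.T_shift hx le_rfl (by omega) ha (by ring)) ha'
  rw [show d - (d + 1) = -1 by ring] at this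
  rcases h.C_neg with h2 | h2
  · rwa [h2, mul_one] at this
  · rw [h2] at this
    have := h.T_neg (by omega) (by omega) this
    rwa [show -(a * -1 * a') = a * a' by ring] at this

theorem down (hx : x ∈ G) {d : ℤ} (h0 : 0 ≤ d) (h1 : d + 3 ≤ n) {a a' : F}
    (ha : T x (n - 2) 0 a ∈ G) (ha' : T x (d + 1) 0 a' ∈ G) : T x d 0 (a * a') ∈ G := by
  have := h.T_comm (k := d) (j := d - n + 2) (l := d + 1) (i := 0) (by omega) (by omega)
    (by omega) (by omega) h0 (by omega)
    (h.T_shift hx (by omega) (by omega) ha (by ring)) ha'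
  rwa [h.C_top (by omega) (by omega), mul_one] at this

theorem top_of (hx : x ∈ G) (hn : 2 ≤ n) (H : ∀ d : ℤ, 0 ≤ d → d + 2 ≤ n → ∀ a, T x d 0 a ∈ G) :
    G = ⊤ := by
  have key : ∀ (k : ℤ) (i : ℕ), i < n → ∀ ψ : Fin n → F,
      (∀ l : ℕ, l + i < n → ψ ⬝ᵥ b x (k + l) = 0) → tvS (b x k) ψ ∈ G := by
    intro k i
    induction i with
    | zero =>
      intro _ ψ hψ
      have : cov (x ^ k)⁻¹ ψ = 0 := by
        ext l
        have := hψ l (by omega)
        rw [← smul_b, h.b_nat _ l.2] at this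
        rw [← dot_e l l.2 (cov (x ^ k)⁻¹ ψ), cov_dot, inv_inv, this]; rfl
      have h2 : ψ = 0 := by
        rw [← cov_cov_inv (x ^ k) ψ, this]; exact zero_vecMul _
      rw [h2, tvS_zero]; exact one_mem _
    | succ i ih =>
      intro hi ψ hψ
      set c := ψ ⬝ᵥ b x (k + (n - 1 - i : ℕ)) with hc
      have h0 : ψ ⬝ᵥ b x k = 0 := by simpa using hψ 0 (by omega)
      have h1 := h.val (k := k) (j := k - i) (by omega) (by omega) c
      have h2 : (ψ - c • ph x (k - i)) ⬝ᵥ b x k = 0 := by rw [sub_dotProduct, h0, h1, sub_zero]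
      rw [show ψ = (ψ - c • ph x (k - i)) + c • ph x (k - i) by abel, tvS_add h2 h1]
      refine mul_mem (ih (by omega) _ fun l hl => ?_)
        (h.T_shift hx (k := i) (j := 0) (by omega) (by omega) (H i (by omega) (by omega) c)
          (by ring))
      rw [sub_dotProduct, smul_dotProduct, ph_b]
      by_cases h3 : l + (i + 1) < n
      · rw [hψ l h3, h.C_zero (by omega) (by omega), smul_zero, sub_zero]
      · rw [h.C_top (by omega) (by omega), hc, show n - 1 - i = l by omega, smul_eq_mul, mul_one,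
          sub_self]
  refine H09.eq_top_of_transvection_mem G fun i j hij c => ?_
  have h0 : (c • (Pi.single j 1 : Fin n → F)) ⬝ᵥ Pi.single i 1 = 0 := by
    simp [Pi.single_apply, hij]
  have h1 := key i (n - 1) (by omega) (c • (Pi.single j 1 : Fin n → F)) fun l hl => by
    rw [show l = 0 by omega, Nat.cast_zero, add_zero, h.b_nat _ i.2, e_eq_single, h0]
  rw [h.b_nat _ i.2, e_eq_single] at h1
  convert h1 using 1
  exact Subtype.ext (by rw [H09.transvection_val, tvS_val h0])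

end Cyc

theorem inv_mem_subring [Finite F] (B : Subring F) {s : F} (hs : s ∈ B) : s⁻¹ ∈ B := by
  rcases eq_or_ne s 0 with rfl | h0
  · rw [_root_.inv_zero]; exact zero_mem _
  have := Fintype.ofFinite F
  have h1 := FiniteField.pow_card_sub_one_eq_one s h0
  have h2 : 1 < Fintype.card F := Fintype.one_lt_card
  have : s⁻¹ = s ^ (Fintype.card F - 2) := by
    refine inv_eq_of_mul_eq_one_right ?_
    rw [← pow_succ', show Fintype.card F - 2 + 1 = Fintype.card F - 1 by omega, h1]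
  rw [this]; exact pow_mem hs _

theorem exists_gen (F : Type*) [Field F] [Finite F] :
    ∃ l : F, l ≠ 0 ∧ ∀ B : Subring F, l ∈ B → B = ⊤ := by
  obtain ⟨g, hg⟩ := IsCyclic.exists_monoid_generator (α := Fˣ)
  refine ⟨g, g.ne_zero, fun B hB => eq_top_iff.2 fun s _ => ?_⟩
  rcases eq_or_ne s 0 with rfl | h0
  · exact zero_mem _
  obtain ⟨k, hk⟩ := hg (Units.mk0 s h0)
  have : s = (g : F) ^ k := by
    rw [← Units.val_pow_eq_pow_val]; exact (congrArg Units.val hk).symm
  rw [this]; exact pow_mem hB _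

namespace Cyc

variable {x : SLn n F} (h : Cyc x) {G : Subgroup (SLn n F)}
include h

theorem exists_ring [Finite F] (hx : x ∈ G) (hn : 3 ≤ n) {a : F} (ha0 : a ≠ 0)
    (ha : T x 0 0 a ∈ G) : ∃ B : Subring F, a ^ n ∈ B ∧
      (∀ d : ℕ, d + 2 ≤ n → ∀ s, T x d 0 (a ^ (d + 1) * s) ∈ G ↔ s ∈ B) ∧ (B = ⊤ → G = ⊤) := by
  have hup : ∀ s, T x 0 0 (a * s) ∈ G → ∀ d : ℕ, d + 2 ≤ n → T x d 0 (a ^ (d + 1) * s) ∈ G := by
    intro s hs d
    induction d with
    | zero => intro _; simpa using hs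
    | succ d ih =>
      intro hd
      have := h.up hx (d := d) (by omega) (by omega) ha (ih (by omega))
      rwa [← mul_assoc, ← pow_succ', ← Nat.cast_succ] at this
  have htop : T x (n - 2) 0 (a ^ (n - 1)) ∈ G := by
    have := hup 1 (by simpa using ha) (n - 2) (by omega)
    rwa [mul_one, show n - 2 + 1 = n - 1 by omega, show ((n - 2 : ℕ) : ℤ) = n - 2 by omega] at this
  have hmul : ∀ s t, T x 0 0 (a * s) ∈ G → T x 0 0 (a * t) ∈ G →
      T x 0 0 (a * (a ^ n * (s * t))) ∈ G := by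
    intro s t hs ht
    have := h.down hx (d := 0) le_rfl (by omega) htop (h.up hx le_rfl (by omega) hs ht)
    convert this using 2
    obtain ⟨m, rfl⟩ : ∃ m, n = m + 1 := ⟨n - 1, by omega⟩
    rw [Nat.add_sub_cancel]; ring
  have hpow : ∀ k : ℕ, ∀ s, T x 0 0 (a * s) ∈ G → T x 0 0 (a * ((a ^ n) ^ k * s)) ∈ G := by
    intro k
    induction k with
    | zero => intro s hs; simpa using hs
    | succ k ih =>
      intro s hs
      have := hmul _ 1 (ih s hs) (by simpa using ha)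
      convert this using 2; ring
  have hinv : ∀ s, T x 0 0 (a * (a ^ n * s)) ∈ G → T x 0 0 (a * s) ∈ G := by
    intro s hs
    have := Fintype.ofFinite F
    have h1 := FiniteField.pow_card_sub_one_eq_one (a ^ n) (pow_ne_zero _ ha0)
    have h2 : 1 < Fintype.card F := Fintype.one_lt_card
    have := hpow (Fintype.card F - 2) _ hs
    rwa [← mul_assoc _ (a ^ n), ← pow_succ, show Fintype.card F - 2 + 1 = Fintype.card F - 1 by
      omega, h1, one_mul] at this
  let B : Subring F :=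
    { carrier := {s | T x 0 0 (a * s) ∈ G}
      mul_mem' := fun hs ht => hinv _ (hmul _ _ hs ht)
      one_mem' := by simpa using ha
      add_mem' := fun {s t} hs ht => by
        change T x 0 0 _ ∈ G
        rw [mul_add, h.T_add le_rfl (by omega)]; exact mul_mem hs ht
      zero_mem' := by
        change T x 0 0 _ ∈ G
        rw [mul_zero, T_zero]; exact one_mem _
      neg_mem' := fun {s} hs => by
        change T x 0 0 _ ∈ G
        rw [mul_neg]; exact h.T_neg le_rfl (by omega) hs }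
  have hB : a ^ n ∈ B := by
    have := hpow 1 1 (by simpa using ha)
    rwa [pow_one, mul_one] at this
  refine ⟨B, hB, fun d => ?_, fun hT => h.top_of hx (by omega) fun d h0 h1 c => ?_⟩
  · induction d with
    | zero => intro _ s; simp only [Nat.cast_zero, zero_add, pow_one]; rfl
    | succ d ih =>
      intro hd s
      refine ⟨fun hs => ?_, fun hs => hup s hs _ hd⟩
      rw [Nat.cast_succ] at hs
      have h1 := h.down hx (d := d) (by omega) (by omega) htop hs
      have h2 : a ^ (n - 1) * (a ^ (d + 1 + 1) * s) = a ^ (d + 1) * (a ^ n * s) := by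
        obtain ⟨m, rfl⟩ : ∃ m, n = m + 1 := ⟨n - 1, by omega⟩
        rw [Nat.add_sub_cancel]; ring
      rw [h2] at h1
      exact hinv _ ((ih (by omega) _).1 h1)
  · obtain ⟨d, rfl⟩ := Int.eq_ofNat_of_zero_le h0
    have := hup ((a ^ (d + 1))⁻¹ * c) (show _ ∈ B from hT ▸ Subring.mem_top _) d (by omega)
    rwa [mul_inv_cancel_left₀ (pow_ne_zero _ ha0)] at this

end Cyc

end L.RU
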