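import Cfsg.Agent.L.RU1

/-!
# Rank two elements whose square is a transvection; conjugation data (`L.RU`)
-/

namespace L.RU

open Matrix L.SR

variable {n : ℕ} {F : Type*} [Field F]

theorem sm_add (g : SLn n F) (x y : Fin n → F) : g • (x + y) = g • x + g • y := mulVec_add _ _ _

theorem sm_sub (g : SLn n F) (x y : Fin n → F) : g • (x - y) = g • x - g • y := mulVec_sub _ _ _

theorem sm_neg (g : SLn n F) (x : Fin n → F) : g • (-x) = -(g • x) := mulVec_neg _ _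

/-- `g = 1 + v ⊗ ψ + w ⊗ φ` with `g²` a transvection -/
structure Rk2 (g : SLn n F) (v ψ w φ : Fin n → F) : Prop where
  act : ∀ y, g • y = y + (ψ ⬝ᵥ y) • v + (φ ⬝ᵥ y) • w
  ψv : ψ ⬝ᵥ v = -2
  φw : φ ⬝ᵥ w = -2
  φv : φ ⬝ᵥ v = 0

namespace Rk2

variable {g : SLn n F} {v ψ w φ : Fin n → F} (h : Rk2 g v ψ w φ) {G : Subgroup (SLn n F)}
include h

theorem tau (hg : g ∈ G) : tvS v ((ψ ⬝ᵥ w) • φ) ∈ G := by
  have h0 : ((ψ ⬝ᵥ w) • φ) ⬝ᵥ v = 0 := by rw [smul_dotProduct, h.φv, smul_zero]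
  have : tvS v ((ψ ⬝ᵥ w) • φ) = g * g := sl_ext fun y => by
    rw [tvS_smul h0, mul_smul, h.act (g • y), h.act y]
    simp only [dotProduct_add, dotProduct_smul, smul_dotProduct, h.ψv, h.φw, h.φv, smul_eq_mul]
    module
  rw [this]; exact mul_mem hg hg

theorem r1 (hg : g ∈ G) {θ : Fin n → F} (hθ : θ ⬝ᵥ v = 0) (ht : tvS v θ ∈ G) :
    tvS v ((θ ⬝ᵥ w) • φ) ∈ G := by
  have h0 : ((θ ⬝ᵥ w) • φ) ⬝ᵥ v = 0 := by rw [smul_dotProduct, h.φv, smul_zero]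
  have h1 : g⁻¹ • v = (-1 : F) • v := by
    rw [inv_smul_eq_iff, smul_smul', h.act, h.ψv, h.φv]; module
  have h2 : cov g⁻¹ θ = θ + (θ ⬝ᵥ w) • φ := dot_ext fun y => by
    rw [cov_dot, inv_inv, h.act]
    simp only [dotProduct_add, add_dotProduct, dotProduct_smul, smul_dotProduct, hθ, smul_eq_mul]
    ring
  have h3 := mul_mem (mul_mem (inv_mem hg) ht) (inv_mem (inv_mem hg))
  have h4 : (θ + (θ ⬝ᵥ w) • φ) ⬝ᵥ v = 0 := by rw [add_dotProduct, hθ, h0, add_zero]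
  have h5 : ((-1 : F) • (θ + (θ ⬝ᵥ w) • φ)) ⬝ᵥ v = 0 := by rw [smul_dotProduct, h4, smul_zero]
  rw [tvS_conj _ hθ, h1, h2, tvS_smul_left _ h4] at h3
  have h6 : tvS v ((θ ⬝ᵥ w) • φ) * (tvS v ((-1 : F) • (θ + (θ ⬝ᵥ w) • φ)) * tvS v θ) = 1 := by
    rw [← tvS_add h5 hθ, ← tvS_add h0 (by rw [add_dotProduct, h5, hθ, add_zero]),
      show (θ ⬝ᵥ w) • φ + ((-1 : F) • (θ + (θ ⬝ᵥ w) • φ) + θ) = 0 by module, tvS_zero]
  rw [eq_inv_of_mul_eq_one_left h6]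
  exact inv_mem (mul_mem h3 ht)

theorem r2 (hg : g ∈ G) {θ u : Fin n → F} (h1 : φ ⬝ᵥ u = 0) (h2 : θ ⬝ᵥ u = 0) (h3 : θ ⬝ᵥ v = 0)
    (h4 : θ ⬝ᵥ w = 0) (ht : tvS u θ ∈ G) : tvS v ((ψ ⬝ᵥ u) • θ) ∈ G := by
  have h5 : cov g⁻¹ θ = θ := dot_ext fun y => by
    rw [cov_dot, inv_inv, h.act]
    simp only [dotProduct_add, dotProduct_smul, h3, h4, smul_zero, add_zero]
  have h6 : cov g θ = θ := by rw [← h5, cov_cov_inv, h5]
  have h7 := mul_mem (mul_mem hg ht) (inv_mem hg)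
  rw [tvS_conj _ h2, h6, h.act, h1, zero_smul, add_zero,
    tvS_add_left h2 (by rw [dotProduct_smul, h3, smul_zero]), tvS_smul_left _ h3] at h7
  exact (G.mul_mem_cancel_left ht).1 h7

end Rk2

/-- conjugation datum -/
structure Dat (x : SLn n F) (v φ : Fin n → F) (δ : F) (D : Matrix (Fin n) (Fin n) F)
    (α w : Fin n → F) : Prop where
  det : D.det = δ
  δ0 : δ ≠ 0
  eq : ∀ y, x⁻¹ • (D *ᵥ (x • y)) = D *ᵥ y + (α ⬝ᵥ y) • v - (φ ⬝ᵥ y) • w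
  Dv : D *ᵥ v = v
  Da : D *ᵥ (x • v) = -(x • v)
  φD : ∀ y, φ ⬝ᵥ D *ᵥ y = -(φ ⬝ᵥ y)
  αv : α ⬝ᵥ v = -2
  φw : φ ⬝ᵥ w = -2
  φv : φ ⬝ᵥ v = 0
  φa : φ ⬝ᵥ x • v = 0

namespace Dat

variable {x : SLn n F} {v φ : Fin n → F} {δ : F} {D : Matrix (Fin n) (Fin n) F}
  {α w : Fin n → F} (h : Dat x v φ δ D α w)
include h

theorem unit : IsUnit D.det := by rw [h.det]; exact h.δ0.isUnit

theorem D_Di (y : Fin n → F) : D *ᵥ (D⁻¹ *ᵥ y) = y := by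
  rw [mulVec_mulVec, mul_nonsing_inv _ h.unit, one_mulVec]

theorem Di_eq {y y' : Fin n → F} (H : D *ᵥ y = y') : D⁻¹ *ᵥ y' = y := by
  rw [← H, mulVec_mulVec, nonsing_inv_mul _ h.unit, one_mulVec]

/-- the conjugate `D x D⁻¹` -/
noncomputable def z : SLn n F := ⟨D * x.1 * D⁻¹, by
  rw [det_mul, det_mul, x.2, mul_one, ← det_mul, mul_nonsing_inv _ h.unit, det_one]⟩

theorem z_smul (y : Fin n → F) : h.z • y = D *ᵥ (x • (D⁻¹ *ᵥ y)) := by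
  rw [smul_eq, smul_eq, mulVec_mulVec, mulVec_mulVec]; rfl

theorem φDi (y : Fin n → F) : φ ⬝ᵥ D⁻¹ *ᵥ y = -(φ ⬝ᵥ y) := by
  have := h.φD (D⁻¹ *ᵥ y)
  rw [h.D_Di] at this
  rw [this, neg_neg]

theorem rk2 : Rk2 (x⁻¹ * h.z) v (α ᵥ* D⁻¹) w φ where
  act y := by
    rw [mul_smul, h.z_smul, h.eq, h.D_Di, h.φDi, ← dotProduct_mulVec]; module
  ψv := by rw [← dotProduct_mulVec, h.Di_eq h.Dv, h.αv]
  φw := h.φw
  φv := h.φv

theorem eq' (y : Fin n → F) :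
    D *ᵥ (x • y) = x • (D *ᵥ y) + (α ⬝ᵥ y) • x • v - (φ ⬝ᵥ y) • x • w := by
  have := congrArg (x • ·) (h.eq y)
  simp only [smul_inv_smul, sm_sub, sm_add, smul_smul'] at this
  exact this

theorem θD (y : Fin n → F) :
    φ ⬝ᵥ x • (D *ᵥ y) = -(φ ⬝ᵥ x • y) + (φ ⬝ᵥ x • w) * (φ ⬝ᵥ y) := by
  have := congrArg (φ ⬝ᵥ ·) (h.eq' y)
  simp only [h.φD, dotProduct_sub, dotProduct_add, dotProduct_smul, h.φa, smul_eq_mul] at this
  linear_combination -this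

theorem θxD (h2 : φ ⬝ᵥ x • x • v = 0) (y : Fin n → F) :
    φ ⬝ᵥ x • x • (D *ᵥ y) = -(φ ⬝ᵥ x • x • y) + (φ ⬝ᵥ x • w) * (φ ⬝ᵥ x • y) +
      (φ ⬝ᵥ x • x • w) * (φ ⬝ᵥ y) := by
  have := congrArg (fun u => φ ⬝ᵥ x • u) (h.eq' y)
  simp only [h.θD, sm_sub, sm_add, smul_smul', dotProduct_sub, dotProduct_add, dotProduct_smul, h2,
    smul_eq_mul] at this
  linear_combination -this

theorem φy : φ ⬝ᵥ D⁻¹ *ᵥ w = 2 := by rw [h.φDi, h.φw, neg_neg]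

theorem θy : φ ⬝ᵥ x • (D⁻¹ *ᵥ w) = φ ⬝ᵥ x • w := by
  have := h.θD (D⁻¹ *ᵥ w)
  rw [h.D_Di, h.φy] at this
  linear_combination this

theorem θxy (h2 : φ ⬝ᵥ x • x • v = 0) :
    φ ⬝ᵥ x • x • (D⁻¹ *ᵥ w) = φ ⬝ᵥ x • x • w + (φ ⬝ᵥ x • w) ^ 2 := by
  have := h.θxD h2 (D⁻¹ *ᵥ w)
  rw [h.D_Di, h.φy, h.θy] at this
  linear_combination this

theorem pert1 (h2 : φ ⬝ᵥ x • x • v = 0) (σ : F) : ∃ D' α' w', Dat x v φ δ D' α' w' ∧
    α' ⬝ᵥ D'⁻¹ *ᵥ w' = α ⬝ᵥ D⁻¹ *ᵥ w - σ * (α ⬝ᵥ x • v + φ ⬝ᵥ x • w) ∧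
    α' ⬝ᵥ x • v = α ⬝ᵥ x • v ∧ φ ⬝ᵥ x • w' = φ ⬝ᵥ x • w ∧ φ ⬝ᵥ x⁻¹ • w' = φ ⬝ᵥ x⁻¹ • w := by
  have h0 : (σ • φ) ⬝ᵥ x • v = 0 := by rw [smul_dotProduct, h.φa, smul_zero]
  have hD : ∀ y, (D * (tvS (x • v) (σ • φ)).1) *ᵥ y = D *ᵥ y - (σ * (φ ⬝ᵥ y)) • x • v := by
    intro y
    rw [← mulVec_mulVec, ← smul_eq, tvS_smul h0, mulVec_add, mulVec_smul, h.Da, smul_dotProduct,
      smul_eq_mul]
    simp only [smul_eq]; module
  have hα : ∀ y, (α - σ • φ ᵥ* x.1) ⬝ᵥ y = α ⬝ᵥ y - σ * (φ ⬝ᵥ x • y) := by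
    intro y
    rw [sub_dotProduct, smul_dotProduct, ← dotProduct_mulVec, smul_eq, smul_eq_mul]
  have hd : Dat x v φ δ (D * (tvS (x • v) (σ • φ)).1) (α - σ • φ ᵥ* x.1) (w - σ • x • v) :=
    { det := by rw [det_mul, (tvS _ _).2, mul_one, h.det]
      δ0 := h.δ0
      eq := fun y => by
        rw [hD, hD, hα, sm_sub, smul_smul', inv_smul_smul, h.eq]; simp only [smul_eq]; module
      Dv := by rw [hD, h.φv, h.Dv]; simp only [smul_eq]; module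
      Da := by rw [hD, h.φa, h.Da]; simp only [smul_eq]; module
      φD := fun y => by rw [hD, dotProduct_sub, dotProduct_smul, h.φa, h.φD, smul_zero, sub_zero]
      αv := by rw [hα, h.φa, h.αv]; ring
      φw := by rw [dotProduct_sub, dotProduct_smul, h.φa, h.φw, smul_zero, sub_zero]
      φv := h.φv
      φa := h.φa }
  refine ⟨_, _, _, hd, ?_, ?_, ?_, ?_⟩
  · rw [hd.Di_eq (y := D⁻¹ *ᵥ w - σ • x • v), hα]
    · simp only [sm_sub, smul_smul', dotProduct_sub, dotProduct_smul, h2, h.θy, smul_eq_mul]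
      ring
    · rw [hD, mulVec_sub, h.D_Di, mulVec_smul, h.Da, dotProduct_sub, dotProduct_smul, h.φa, h.φy]
      simp only [smul_eq]; module
  · rw [hα, h2]; ring
  · rw [sm_sub, smul_smul', dotProduct_sub, dotProduct_smul, h2, smul_zero, sub_zero]
  · rw [sm_sub, smul_smul', inv_smul_smul, dotProduct_sub, dotProduct_smul, h.φv, smul_zero,
      sub_zero]

theorem pert2 (h2 : φ ⬝ᵥ x • x • v = 0) (h3 : φ ⬝ᵥ x • x • x • v = 0)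
    (h4 : φ ⬝ᵥ x • x • x • x • v = 0) {l : F} (hD2 : D *ᵥ (x • x • v) = -(x • x • v) - l • x • v)
    (hα1 : α ⬝ᵥ x • v = -l) (hα2 : α ⬝ᵥ x • x • v = 0) (hw1 : φ ⬝ᵥ x • w = -l)
    (hw2 : φ ⬝ᵥ x • x • w = 0) (σ : F) : ∃ D' α' w', Dat x v φ δ D' α' w' ∧
    α' ⬝ᵥ D'⁻¹ *ᵥ w' = α ⬝ᵥ D⁻¹ *ᵥ w - σ * l ^ 2 ∧ φ ⬝ᵥ x • w' = -l := by
  have h0 : (σ • φ) ⬝ᵥ x • x • v = 0 := by rw [smul_dotProduct, h2, smul_zero]
  have hθ : ∀ y, (σ • φ ᵥ* x.1) ⬝ᵥ y = σ * (φ ⬝ᵥ x • y) := fun y => by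
    rw [smul_dotProduct, ← dotProduct_mulVec, smul_eq, smul_eq_mul]
  have h0' : (σ • φ ᵥ* x.1) ⬝ᵥ x • v = 0 := by rw [hθ, h2, mul_zero]
  have hD : ∀ y, (D * (tvS (x • v) (σ • φ ᵥ* x.1) * tvS (x • x • v) (σ • φ)).1) *ᵥ y =
      D *ᵥ y - (σ * (φ ⬝ᵥ x • y)) • x • v - (σ * (φ ⬝ᵥ y)) • (x • x • v + l • x • v) := by
    intro y
    rw [← mulVec_mulVec, ← smul_eq, mul_smul, tvS_smul h0, tvS_smul h0', hθ]
    simp only [mulVec_add, mulVec_smul, h.Da, hD2, sm_add, smul_smul', dotProduct_add,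
      dotProduct_smul, smul_dotProduct, h3, smul_eq_mul]
    simp only [smul_eq]; module
  have hα : ∀ y, (α - σ • φ ᵥ* (x * x).1 - (σ * l) • φ ᵥ* x.1) ⬝ᵥ y =
      α ⬝ᵥ y - σ * (φ ⬝ᵥ x • x • y) - σ * l * (φ ⬝ᵥ x • y) := by
    intro y
    rw [sub_dotProduct, sub_dotProduct, smul_dotProduct, smul_dotProduct, ← dotProduct_mulVec,
      ← dotProduct_mulVec, ← smul_eq, ← smul_eq, mul_smul, smul_eq_mul, smul_eq_mul]
  have hd : Dat x v φ δ (D * (tvS (x • v) (σ • φ ᵥ* x.1) * tvS (x • x • v) (σ • φ)).1)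
      (α - σ • φ ᵥ* (x * x).1 - (σ * l) • φ ᵥ* x.1) (w - σ • (x • x • v + l • x • v)) :=
    { det := by rw [det_mul, (_ * _ : SLn n F).2, mul_one, h.det]
      δ0 := h.δ0
      eq := fun y => by
        rw [hD, hD, hα]
        simp only [sm_sub, sm_add, smul_smul', inv_smul_smul, h.eq]; simp only [smul_eq]; module
      Dv := by rw [hD, h.φv, h.φa, h.Dv]; simp only [smul_eq]; module
      Da := by rw [hD, h.φa, h2, h.Da]; simp only [smul_eq]; module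
      φD := fun y => by
        rw [hD]
        simp only [dotProduct_sub, dotProduct_add, dotProduct_smul, h.φa, h2, h.φD, smul_zero,
          sub_zero, add_zero]
      αv := by rw [hα, h.φa, h2, h.αv]; ring
      φw := by
        simp only [dotProduct_sub, dotProduct_add, dotProduct_smul, h.φa, h2, h.φw, smul_zero,
          sub_zero, add_zero]
      φv := h.φv
      φa := h.φa }
  refine ⟨_, _, _, hd, ?_, ?_⟩
  · rw [hd.Di_eq (y := D⁻¹ *ᵥ w - σ • x • x • v + (σ * l) • x • v), hα]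
    · simp only [sm_sub, sm_add, smul_smul', dotProduct_sub, dotProduct_add, dotProduct_smul, h2,
        h3, h4, h.θy, h.θxy h2, hα1, hα2, hw1, hw2, smul_eq_mul]
      ring
    · rw [hD]
      simp only [mulVec_sub, mulVec_add, h.D_Di, mulVec_smul, h.Da, hD2, sm_sub, sm_add, smul_smul',
        dotProduct_sub, dotProduct_add, dotProduct_smul, h.φa, h.φy, h.θy, h2, h3, hw1, smul_eq_mul]
      simp only [smul_eq]; module
  · simp only [sm_sub, sm_add, smul_smul', dotProduct_sub, dotProduct_add, dotProduct_smul, h2, h3,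
      hw1, smul_zero, sub_zero, add_zero]

end Dat

end L.RU
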