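import Cfsg.Agent.L.RU2

/-!
# The basic conjugation datum and cyclic unipotent elements (`L.RU`)
-/

namespace L.RU

open Matrix L.SR

variable {n : ℕ} {F : Type*} [Field F]

theorem mulVec_e (M : Matrix (Fin n) (Fin n) F) (k : ℕ) (hk : k < n) (i : Fin n) :
    (M *ᵥ e n F k) i = M i ⟨k, hk⟩ := dot_e k hk (M i)

theorem mat_ext {M N : Matrix (Fin n) (Fin n) F} (h : ∀ k, k < n → M *ᵥ e n F k = N *ᵥ e n F k) :
    M = N := by
  ext i j
  have := congrFun (h j j.2) i
  rwa [mulVec_e _ _ j.2, mulVec_e _ _ j.2] at this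

theorem vmv (u v w : Fin n → F) : vecMulVec u v *ᵥ w = (v ⬝ᵥ w) • u := by
  rw [vecMulVec_mulVec, op_smul_eq_smul]

/-- regular unipotent elements -/
def RegU (x : SLn n F) : Prop := IsNilpotent (x.1 - 1) ∧ (x.1 - 1) ^ (n - 1) ≠ 0

theorem conj_pow {x z P : Matrix (Fin n) (Fin n) F} (h : P * x = z * P) (k : ℕ) :
    P * (x - 1) ^ k = (z - 1) ^ k * P := by
  induction k with
  | zero => simp
  | succ k ih =>
    rw [pow_succ, ← mul_assoc, ih, mul_assoc, mul_sub, h, pow_succ, mul_assoc, sub_mul, mul_one,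
      one_mul]

theorem RegU.conj {x z : SLn n F} (hx : RegU x) {P : Matrix (Fin n) (Fin n) F} (hP : IsUnit P.det)
    (h : P * x.1 = z.1 * P) : RegU z := by
  have hu := (isUnit_iff_isUnit_det P).2 hP
  obtain ⟨⟨k, hk⟩, h2⟩ := hx
  refine ⟨⟨k, ?_⟩, fun h3 => h2 ?_⟩
  · have := conj_pow h k
    rw [hk, mul_zero] at this
    exact hu.mul_left_eq_zero.1 this.symm
  · have := conj_pow h (n - 1)
    rw [h3, zero_mul] at this
    exact hu.mul_right_eq_zero.1 this

theorem Dat.regU {x : SLn n F} {v φ : Fin n → F} {δ : F} {D : Matrix (Fin n) (Fin n) F}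
    {α w : Fin n → F} (h : Dat x v φ δ D α w) (hx : RegU x) : RegU h.z :=
  hx.conj h.unit (by
    change _ = D * x.1 * D⁻¹ * D
    rw [mul_assoc, nonsing_inv_mul _ h.unit, mul_one])

theorem Dat.isConj {x : SLn n F} {v φ : Fin n → F} {δ : F} {D : Matrix (Fin n) (Fin n) F}
    {α w : Fin n → F} (h : Dat x v φ δ D α w) {s : F} (hs : s ^ n * δ = 1) :
    ∃ g : SLn n F, g * x * g⁻¹ = h.z := by
  refine ⟨⟨s • D, by rw [det_smul, Fintype.card_fin, h.det, hs]⟩,
    mul_inv_eq_iff_eq_mul.2 (Subtype.ext ?_)⟩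
  change s • D * x.1 = D * x.1 * D⁻¹ * s • D
  rw [mul_smul_comm, mul_assoc, nonsing_inv_mul _ h.unit, mul_one, smul_mul_assoc]

namespace Cyc

variable {x : SLn n F} (h : Cyc x)
include h

theorem ph_supp {j : ℕ} (hj : 1 ≤ j) {y : Fin n → F} (hy : ∀ i : Fin n, (i : ℕ) < j → y i = 0) :
    ph x j ⬝ᵥ y = 0 := by
  refine Finset.sum_eq_zero fun i _ => ?_
  by_cases hi : (i : ℕ) < j
  · rw [hy i hi, mul_zero]
  · have := i.2
    rw [← dot_e i i.2 (ph x j), ← h.b_nat _ i.2, ph_b, h.C_zero (by omega) (by omega), zero_mul]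

theorem reg (hn : 1 ≤ n) : (x.1 - 1) ^ (n - 1) ≠ 0 := by
  have key : ∀ k j : ℕ, j + k < n → ph x (-j) ⬝ᵥ (x.1 - 1) ^ k *ᵥ e n F 0 =
      if j + k + 1 = n then 1 else 0 := by
    intro k
    induction k with
    | zero =>
      intro j hj
      rw [pow_zero, one_mulVec, ← h.b_nat 0 (by omega), ph_b]
      split_ifs with h1
      · exact h.C_top (by omega) (by omega)
      · exact h.C_zero (by omega) (by omega)
    | succ k ih =>
      intro j hj
      have h1 : ∀ y, ph x (-j) ⬝ᵥ x • y = ph x (-(j + 1 : ℕ)) ⬝ᵥ y := fun y => by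
        rw [ph_dot, ph_dot, neg_neg, neg_neg, ← mul_smul, Nat.cast_succ, _root_.zpow_add_one]
      rw [pow_succ', ← mulVec_mulVec, sub_mulVec, one_mulVec, dotProduct_sub, ← smul_eq, h1,
        ih _ (by omega), ih _ (by omega), if_neg (show ¬j + k + 1 = n by omega), sub_zero]
      exact if_congr (by omega) rfl rfl
  intro h0
  have := key (n - 1) 0 (by omega)
  rw [h0, zero_mulVec, dotProduct_zero, if_pos (by omega)] at this
  exact zero_ne_one this

end Cyc

variable (n) in
/-- the basic conjugating matrix -/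
def Db (ρ : ℕ) (l : F) : Matrix (Fin n) (Fin n) F := fun i j =>
  if (i : ℕ) < ρ then (if (i : ℕ) = j then 1 else 0)
  else if (i : ℕ) = j then -1 else if (i : ℕ) + 1 = j then -l else 0

theorem Db_lt {ρ k : ℕ} (l : F) (hk : k < ρ) (hn : k < n) : Db n ρ l *ᵥ e n F k = e n F k := by
  ext i
  rw [mulVec_e _ _ hn]
  simp only [Db, e]
  split_ifs <;> first | rfl | omega

theorem Db_eq {ρ : ℕ} (l : F) (hn : ρ < n) : Db n ρ l *ᵥ e n F ρ = -e n F ρ := by
  ext i
  rw [mulVec_e _ _ hn]
  simp only [Db, e, Pi.neg_apply]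
  split_ifs <;> first | rfl | omega | simp

theorem Db_gt {ρ k : ℕ} (l : F) (hk : ρ ≤ k) (hn : k + 1 < n) :
    Db n ρ l *ᵥ e n F (k + 1) = -e n F (k + 1) - l • e n F k := by
  ext i
  rw [mulVec_e _ _ hn]
  simp only [Db, e, Pi.neg_apply, Pi.sub_apply, Pi.smul_apply, smul_eq_mul]
  split_ifs <;> first | rfl | omega | simp

theorem Db_low {ρ : ℕ} (l : F) (y : Fin n → F) (i : Fin n) (hi : (i : ℕ) < ρ) :
    (Db n ρ l *ᵥ y) i = y i := by
  have : Db n ρ l i = e n F i := by
    ext j; simp only [Db, e, if_pos hi, eq_comm]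
  change Db n ρ l i ⬝ᵥ y = _
  rw [this, e_dot _ i.2]

theorem Db_top {ρ : ℕ} (l : F) (hn : ρ < n) (y : Fin n → F) :
    e n F (n - 1) ⬝ᵥ Db n ρ l *ᵥ y = -(e n F (n - 1) ⬝ᵥ y) := by
  have : Db n ρ l ⟨n - 1, by omega⟩ = -e n F (n - 1) := by
    ext j
    have := j.2
    simp only [Db, e, Pi.neg_apply]
    split_ifs <;> first | rfl | omega | simp
  rw [e_dot _ (by omega)]
  change Db n ρ l _ ⬝ᵥ y = _
  rw [this, neg_dotProduct]

theorem Db_det {ρ : ℕ} (l : F) (hn : ρ ≤ n) : (Db n ρ l).det = (-1) ^ (n - ρ) := by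
  rw [det_of_upperTriangular]
  · have : ∀ i : Fin n, Db n ρ l i i = (fun i : ℕ => if i < ρ then (1 : F) else -1) i := by
      intro i; simp [Db]
    rw [Finset.prod_congr rfl fun i _ => this i, Fin.prod_univ_eq_prod_range
      (fun i : ℕ => if i < ρ then (1 : F) else -1), ← Finset.prod_range_mul_prod_Ico _ hn,
      Finset.prod_eq_one fun i hi => if_pos (Finset.mem_range.1 hi), one_mul,
      Finset.prod_congr rfl fun i hi => if_neg (not_lt.2 (Finset.mem_Ico.1 hi).1),
      Finset.prod_const, Nat.card_Ico]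
  · intro i j hij
    have : (j : ℕ) < i := hij
    simp only [Db]
    split_ifs <;> first | rfl | omega

theorem Cyc.base {x : SLn n F} (h : Cyc x) {r : ℕ} (hn : r + 3 ≤ n) (l : F) :
    ∃ α w, Dat x (e n F r) (e n F (n - 1)) ((-1) ^ (n - (r + 1))) (Db n (r + 1) l) α w ∧
      α ⬝ᵥ x • e n F r = -l ∧ α ⬝ᵥ x • x • e n F r = 0 ∧ e n F (n - 1) ⬝ᵥ x • w = -l ∧
      e n F (n - 1) ⬝ᵥ x • x • w = 0 ∧ (1 ≤ r → e n F (n - 1) ⬝ᵥ x⁻¹ • w = 0) := by
  obtain ⟨m, rfl⟩ : ∃ m, n = m + 2 := ⟨n - 2, by omega⟩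
  simp only [show m + 2 - 1 = m + 1 from rfl]
  set D := Db (m + 2) (r + 1) l with hD
  set φ := e (m + 2) F (m + 1) with hφ
  set c := x • φ with hc
  have hφe : ∀ k, φ ⬝ᵥ e (m + 2) F k = if m + 1 = k then 1 else 0 := fun k =>
    e_dot_e _ _ (by omega)
  have hα : ∀ k, ((-2 : F) • e (m + 2) F r - l • e (m + 2) F (r + 1)) ⬝ᵥ e (m + 2) F k =
      (if r = k then -2 else 0) - if r + 1 = k then l else 0 := fun k => by
    rw [sub_dotProduct, smul_dotProduct, smul_dotProduct, e_dot_e _ _ (by omega),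
      e_dot_e _ _ (by omega)]
    simp
  have hx1 := h.shift r (by omega)
  have hx2 := h.shift (r + 1) (by omega)
  have hDφ : D *ᵥ φ = -φ - l • e (m + 2) F m := Db_gt l (by omega) (by omega)
  have hxm : x • e (m + 2) F m = φ := h.shift m (by omega)
  have hph : ∀ (j : ℕ) y, ph x j ⬝ᵥ y = φ ⬝ᵥ x ^ (-(j : ℤ)) • y := fun j y => ph_dot x j y
  have hDc : ∀ j : ℕ, 1 ≤ j → j ≤ r + 1 → ph x j ⬝ᵥ D *ᵥ c = ph x j ⬝ᵥ c := fun j h1 h2 => by
    rw [← sub_eq_zero, ← dotProduct_sub]
    exact h.ph_supp h1 fun i hi => by rw [Pi.sub_apply, Db_low _ _ _ (by omega), sub_self]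
  have hd : Dat x (e (m + 2) F r) φ ((-1) ^ (m + 2 - (r + 1))) D
      ((-2 : F) • e (m + 2) F r - l • e (m + 2) F (r + 1)) (D *ᵥ φ - x⁻¹ • (D *ᵥ c)) :=
    { det := Db_det l (by omega)
      δ0 := pow_ne_zero _ (neg_ne_zero.2 one_ne_zero)
      eq := fun y => by
        have : (x⁻¹).1 * D * x.1 = D + vecMulVec (e (m + 2) F r)
            ((-2 : F) • e (m + 2) F r - l • e (m + 2) F (r + 1)) -
            vecMulVec (D *ᵥ φ - x⁻¹ • (D *ᵥ c)) φ := mat_ext fun k hk => by
          rw [← mulVec_mulVec, ← mulVec_mulVec, sub_mulVec, add_mulVec, vmv, vmv, hα, hφe,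
            ← smul_eq, ← smul_eq]
          by_cases h1 : k = m + 1
          · subst h1
            rw [if_neg (by omega), if_neg (by omega), if_pos rfl, ← hφ, ← hc]
            simp only [smul_eq]; module
          rw [if_neg (Ne.symm h1), zero_smul, sub_zero, inv_smul_eq_iff, h.shift k (by omega),
            sm_add, smul_smul', hx1]
          rcases lt_trichotomy k r with h2 | rfl | h2
          · rw [Db_lt l (by omega) (by omega), Db_lt l (by omega) (by omega), h.shift k (by omega),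
              if_neg (by omega), if_neg (by omega)]
            module
          · rw [Db_eq l (by omega), Db_lt l (by omega) (by omega), hx1, if_pos rfl,
              if_neg (by omega)]
            module
          rw [Db_gt l (by omega) (by omega), if_neg (by omega)]
          by_cases h3 : k = r + 1
          · subst h3
            rw [Db_eq l (by omega), sm_neg, hx2, if_pos rfl]; module
          · obtain ⟨k, rfl⟩ : ∃ k', k = k' + 1 := ⟨k - 1, by omega⟩
            rw [Db_gt l (by omega) (by omega), if_neg (by omega), sm_sub, sm_neg, smul_smul',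
              h.shift k (by omega), h.shift (k + 1) (by omega)]
            module
        rw [smul_eq, smul_eq, mulVec_mulVec, mulVec_mulVec, this, sub_mulVec, add_mulVec, vmv, vmv]
      Dv := Db_lt l (by omega) (by omega)
      Da := by rw [hx1]; exact Db_eq l (by omega)
      φD := Db_top l (by omega)
      αv := by rw [hα, if_pos rfl, if_neg (by omega), sub_zero]
      φw := by
        have h1 := hDc 1 le_rfl (by omega)
        rw [hph, hph, Nat.cast_one, _root_.zpow_neg, zpow_one, hc, inv_smul_smul] at h1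
        rw [dotProduct_sub, h1, show φ ⬝ᵥ D *ᵥ φ = -(φ ⬝ᵥ φ) from Db_top l (by omega) φ, hφe,
          if_pos rfl]
        ring
      φv := by rw [hφe, if_neg (by omega)]
      φa := by rw [hx1, hφe, if_neg (by omega)] }
  have hw1 : φ ⬝ᵥ x • (D *ᵥ φ - x⁻¹ • (D *ᵥ c)) = -l := by
    rw [sm_sub, smul_inv_smul, dotProduct_sub, hd.φD, hDφ, sm_sub, sm_neg, smul_smul', hxm,
      dotProduct_sub, dotProduct_smul, dotProduct_neg, hφe, if_pos rfl, ← hc, smul_eq_mul]
    ring
  refine ⟨_, _, hd, ?_, ?_, hw1, ?_, fun hr => ?_⟩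
  · rw [hx1, hα, if_neg (by omega), if_pos rfl, zero_sub]
  · rw [hx1, hx2, hα, if_neg (by omega), if_neg (by omega), sub_zero]
  · rw [sm_sub, smul_inv_smul, sm_sub, dotProduct_sub, hd.θD c, hw1, hDφ, sm_sub, sm_neg,
      smul_smul', hxm, sm_sub, sm_neg, smul_smul', dotProduct_sub, dotProduct_smul, dotProduct_neg,
      ← hc, smul_eq_mul]
    ring
  · have h1 := hDc 2 (by omega) (by omega)
    have h2 := h.ph_supp (j := 1) le_rfl (y := D *ᵥ φ) fun i hi => by
      rw [Db_low _ _ _ (by omega), hφ, e, if_neg (by omega)]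
    have h3 := h.ph_supp (j := 1) le_rfl (y := φ) fun i hi => by rw [hφ, e, if_neg (by omega)]
    have h4 : ∀ y : Fin (m + 2) → F, x ^ (-((2 : ℕ) : ℤ)) • y = x⁻¹ • x⁻¹ • y := fun y => by
      rw [← mul_smul, _root_.zpow_neg, zpow_natCast, pow_two, _root_.mul_inv_rev]
    rw [hph, Nat.cast_one, _root_.zpow_neg, zpow_one] at h2 h3
    rw [hph, hph, h4, h4, hc, inv_smul_smul, h3] at h1
    rw [sm_sub, dotProduct_sub, h2, hc, h1, sub_zero]

theorem exists_cyc (n : ℕ) (F : Type*) [Field F] (hn : 1 ≤ n) : ∃ x : SLn n F, Cyc x ∧ RegU x := by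
  let J : SLn n F := ⟨Matrix.of fun i j => if (i : ℕ) = j ∨ (i : ℕ) = j + 1 then 1 else 0, by
    rw [det_of_lowerTriangular]
    · simp
    · intro i j hij
      have : (i : ℕ) < j := hij
      exact if_neg (by omega)⟩
  let P : SLn n F := ⟨Matrix.of fun i j => ((j : ℕ).choose i : F), by
    rw [det_of_upperTriangular]
    · simp
    · intro i j hij
      have : (j : ℕ) < i := hij
      simp [Nat.choose_eq_zero_of_lt this]⟩
  have hJ : ∀ (y : Fin n → F) (i : Fin n), (J • y) i = y i +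
      if h : 1 ≤ (i : ℕ) then y ⟨i - 1, by omega⟩ else 0 := fun y i => by
    have : J.1 i = e n F i + if 1 ≤ (i : ℕ) then e n F (i - 1) else 0 := by
      ext j
      simp only [J, e, Pi.add_apply, ite_apply, Pi.zero_apply, of_apply]
      split_ifs <;> first | rfl | omega | simp
    change J.1 i ⬝ᵥ y = _
    rw [this, add_dotProduct, e_dot _ i.2]
    split_ifs with h
    · rw [e_dot _ (by omega)]
    · rw [zero_dotProduct]
  have hP : ∀ k, k < n → P • e n F k = fun i : Fin n => (k.choose i : F) := fun k hk =>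
    funext fun i => mulVec_e _ _ hk i
  have hc : Cyc (P⁻¹ * J * P) :=
    { shift := fun k hk => by
        rw [mul_smul, mul_smul, inv_smul_eq_iff, hP _ hk, hP _ (by omega)]
        ext ⟨i, hi⟩
        rw [hJ]
        rcases i with _ | i
        · simp
        · simp [Nat.choose_succ_succ, add_comm]
      sgn := by
        have h1 : P • e n F 0 = e n F 0 := by
          rw [hP _ (by omega)]
          ext ⟨i, hi⟩
          rcases i with _ | i <;> simp [e]
        have h2 : J⁻¹ • e n F 0 = fun i : Fin n => (-1 : F) ^ (i : ℕ) := by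
          rw [inv_smul_eq_iff]
          ext ⟨i, hi⟩
          rw [hJ]
          rcases i with _ | i <;> simp [e, pow_succ]
        have h3 : ∀ y, e n F (n - 1) ⬝ᵥ P • y = e n F (n - 1) ⬝ᵥ y := fun y => by
          have : P.1 ⟨n - 1, by omega⟩ = e n F (n - 1) := by
            ext j
            have := j.2
            simp only [P, e, of_apply]
            split_ifs with h
            · rw [h, Nat.choose_self, Nat.cast_one]
            · rw [Nat.choose_eq_zero_of_lt (by omega), Nat.cast_zero]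
          rw [e_dot _ (by omega)]
          change P.1 _ ⬝ᵥ y = _
          rw [this]
        rw [_root_.mul_inv_rev, _root_.mul_inv_rev, inv_inv, mul_smul, mul_smul, h1, h2, ← h3,
          smul_inv_smul, e_dot _ (by omega)]
        exact neg_one_pow_eq_or F _ }
  refine ⟨_, hc, ?_, hc.reg hn⟩
  have h1 : ∀ m k, (J.1 - 1) ^ m *ᵥ e n F k = e n F (k + m) := by
    intro m
    induction m with
    | zero => intro k; simp
    | succ m ih =>
      intro k
      rw [pow_succ', ← mulVec_mulVec, ih, sub_mulVec, one_mulVec, ← smul_eq]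
      ext i
      rw [Pi.sub_apply, hJ]
      simp only [e]
      split_ifs <;> first | omega | simp
  have h2 : (J.1 - 1) ^ n = 0 := mat_ext fun k _ => by
    rw [h1, zero_mulVec]
    ext i
    have := i.2
    exact if_neg (by omega)
  have := conj_pow (x := (P⁻¹ * J * P).1) (z := J.1) (P := P.1)
    (congrArg Subtype.val (show P * (P⁻¹ * J * P) = J * P by group)) n
  rw [h2, zero_mul] at this
  exact ⟨n, ((isUnit_iff_isUnit_det P.1).2 (by rw [P.2]; exact isUnit_one)).mul_right_eq_zero.1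
    this⟩

end L.RU
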