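import Cfsg.Agent.L.RU3

/-!
# `SL_n(q)` is generated by two regular unipotent elements: generic cases (`L.RU`)
-/

namespace L.RU

open Matrix L.SR

variable {n : ℕ} {F : Type*} [Field F]

theorem of_mat (x : SLn n F) {D : Matrix (Fin n) (Fin n) F} (hD : IsUnit D.det)
    {v ψ w φ : Fin n → F} (H : D * x.1 = x.1 * (1 + vecMulVec v ψ + vecMulVec w φ) * D)
    (h1 : ψ ⬝ᵥ v = -2) (h2 : φ ⬝ᵥ w = -2) (h3 : φ ⬝ᵥ v = 0) :
    ∃ z : SLn n F, D * x.1 = z.1 * D ∧ Rk2 (x⁻¹ * z) v ψ w φ := by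
  obtain ⟨z, hz⟩ : ∃ z : SLn n F, z.1 = x.1 * (1 + vecMulVec v ψ + vecMulVec w φ) := by
    refine ⟨⟨_, ?_⟩, rfl⟩
    have := congrArg det H
    rw [det_mul, det_mul, x.2, mul_one] at this
    exact hD.mul_right_cancel (by rw [← this, one_mul])
  refine ⟨z, hz ▸ H, fun y => ?_, h1, h2, h3⟩
  rw [mul_smul, inv_smul_eq_iff, smul_eq, smul_eq, hz, ← mulVec_mulVec, add_mulVec, add_mulVec,
    one_mulVec, vmv, vmv]

theorem conj_of {x z : SLn n F} {D : Matrix (Fin n) (Fin n) F} (H : D * x.1 = z.1 * D) {s : F}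
    (hs : s ^ n * D.det = 1) : ∃ g : SLn n F, g * x * g⁻¹ = z := by
  refine ⟨⟨s • D, by rw [det_smul, Fintype.card_fin, hs]⟩,
    mul_inv_eq_iff_eq_mul.2 (Subtype.ext ?_)⟩
  change s • D * x.1 = z.1 * s • D
  rw [mul_smul_comm, smul_mul_assoc, H]

theorem mem_pair {G : Type*} [Group G] (x z : G) : x ∈ Subgroup.closure ({x, z} : Set G) ∧
    x⁻¹ * z ∈ Subgroup.closure ({x, z} : Set G) :=
  have h : x ∈ Subgroup.closure ({x, z} : Set G) := Subgroup.subset_closure (by simp)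
  ⟨h, mul_mem (inv_mem h) (Subgroup.subset_closure (by simp))⟩

theorem mem_of_pow_char [Finite F] {p : ℕ} (hp : p.Prime) (h0 : (p : F) = 0) (B : Subring F) {s : F}
    (hs : s ^ p ∈ B) : s ∈ B := by
  have := Fintype.ofFinite F
  have : CharP F p := (CharP.charP_iff_prime_eq_zero hp).2 h0
  obtain ⟨⟨k, hk⟩, -, h⟩ := FiniteField.card F p
  obtain ⟨k, rfl⟩ : ∃ k', k = k' + 1 := ⟨k - 1, by omega⟩
  rw [← FiniteField.pow_card s, h, PNat.mk_coe, pow_succ', pow_mul]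
  exact pow_mem hs _

namespace Cyc

variable {x g : SLn n F} (h : Cyc x) {G : Subgroup (SLn n F)} {ψ w : Fin n → F}
include h

theorem gen1 [Finite F] (hn : 3 ≤ n) (hx : x ∈ G) (hg : g ∈ G)
    (hr : Rk2 g (e n F 0) ψ w (e n F (n - 1))) (h0 : ψ ⬝ᵥ w ≠ 0) : ∃ B : Subring F,
      (ψ ⬝ᵥ w) ^ n ∈ B ∧ (∀ d : ℕ, d + 2 ≤ n → (ψ ⬝ᵥ w) ^ d * (e n F (n - 1) ⬝ᵥ x ^ d • w) ∈ B) ∧
      (B = ⊤ → G = ⊤) := by
  have hb := h.b_nat 0 (by omega)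
  rw [Nat.cast_zero] at hb
  have h1 : T x 0 0 (ψ ⬝ᵥ w) ∈ G := by rw [T, hb, ph_zero]; exact hr.tau hg
  obtain ⟨B, h2, h3, h4⟩ := h.exists_ring hx hn h0 h1
  refine ⟨B, h2, fun d hd => ?_, h4⟩
  have h5 := h.T_shift hx (k' := 0) (j' := -d) (by omega) (by omega)
    ((h3 d hd 1).2 (one_mem _)) (by ring)
  have h6 := h.val (k := 0) (j := -d) (by omega) (by omega) ((ψ ⬝ᵥ w) ^ (d + 1) * 1)
  rw [T, hb] at h5
  rw [hb] at h6
  have h7 := hr.r1 hg h6 h5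
  rw [← h3 0 (by omega), Nat.cast_zero, T, hb, ph_zero]
  convert h7 using 3
  rw [smul_dotProduct, ph_dot, neg_neg, zpow_natCast, smul_eq_mul]; ring

theorem gen2 (hn : 4 ≤ n) (hx : x ∈ G) (hg : g ∈ G)
    (hr : Rk2 g (e n F 1) ψ w (e n F (n - 1))) (h0 : e n F (n - 1) ⬝ᵥ x⁻¹ • w = 0) :
    T x 1 0 (ψ ⬝ᵥ w) ∈ G ∧ T x 0 0 (ψ ⬝ᵥ w * ψ ⬝ᵥ e n F 2) ∈ G := by
  have hb := h.b_nat 1 (by omega)
  have hb2 := h.b_nat 2 (by omega)
  rw [Nat.cast_one] at hb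
  rw [Nat.cast_ofNat] at hb2
  have h1 : T x 1 0 (ψ ⬝ᵥ w) ∈ G := by rw [T, hb, ph_zero]; exact hr.tau hg
  refine ⟨h1, ?_⟩
  have h2 := h.T_shift hx (k' := 2) (j' := 1) (by omega) (by omega) h1 (by ring)
  have h3 := h.val (k := 2) (j := 1) (by omega) (by omega) (ψ ⬝ᵥ w)
  have h4 := h.val (k := 1) (j := 1) (by omega) (by omega) (ψ ⬝ᵥ w)
  rw [T, hb2] at h2
  rw [hb2] at h3
  rw [hb] at h4
  have h5 := hr.r2 hg (by rw [e_dot_e _ _ (by omega), if_neg (by omega)]) h3 h4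
    (by rw [smul_dotProduct, ph_dot, _root_.zpow_neg, zpow_one, h0, smul_zero]) h2
  rw [smul_smul, ← hb, mul_comm] at h5
  exact h.T_shift hx (k := 1) (j := 1) (by omega) (by omega) h5 (by ring)

theorem φ_pow (r k : ℕ) (hk : r + k + 2 ≤ n) : e n F (n - 1) ⬝ᵥ x ^ k • e n F r = 0 := by
  rw [← h.b_nat r (by omega), ← zpow_natCast, smul_b, ← Nat.cast_add, h.b_nat _ (by omega),
    e_dot_e _ _ (by omega), if_neg (by omega)]

end Cyc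

/-- generation by two regular unipotent elements -/
def Gen2 (n : ℕ) (F : Type*) [Field F] : Prop :=
  ∃ u v : SLn n F, RegU u ∧ RegU v ∧ Subgroup.closure ({u, v} : Set (SLn n F)) = ⊤

/-- generation by two conjugate regular unipotent elements -/
def Gen2c (n : ℕ) (F : Type*) [Field F] : Prop :=
  ∃ u g : SLn n F, RegU u ∧ Subgroup.closure ({u, g * u * g⁻¹} : Set (SLn n F)) = ⊤

theorem Gen2c.gen2 (h : Gen2c n F) : Gen2 n F := by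
  obtain ⟨u, g, h1, h2⟩ := h
  refine ⟨u, _, h1, h1.conj (P := g.1) (by rw [g.2]; exact isUnit_one) ?_, h2⟩
  exact congrArg Subtype.val (show g * u = g * u * g⁻¹ * g by group)

variable [Finite F]

theorem odd_ge5 (h2 : (2 : F) ≠ 0) (hn : 5 ≤ n) : Gen2c n F := by
  obtain ⟨x, hx, hu⟩ := exists_cyc n F (by omega)
  obtain ⟨l, hl, hl'⟩ := exists_gen F
  obtain ⟨α, w, hd, h1, -, h3, -, h4⟩ := hx.base (r := 1) (by omega) l
  obtain ⟨D', α', w', hd', k1, k2, -, k4⟩ := hd.pert1 (by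
    have := hx.φ_pow 1 2 (by omega)
    rwa [pow_two, mul_smul] at this) ((l⁻¹ - α ⬝ᵥ (Db n 2 l)⁻¹ *ᵥ w) / (2 * l))
  obtain ⟨g, hg⟩ := hd'.isConj (s := -1) (by
    rw [← pow_add, show n + (n - (1 + 1)) = 2 * (n - 1) by omega, pow_mul]; simp)
  refine ⟨x, g, hu, ?_⟩
  rw [hg]
  obtain ⟨m1, m2⟩ := mem_pair x hd'.z
  obtain ⟨t1, t2⟩ := hx.gen2 (by omega) m1 m2 hd'.rk2 (by rw [k4, h4 le_rfl])
  have e1 : α' ᵥ* D'⁻¹ ⬝ᵥ w' = l⁻¹ := by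
    rw [← dotProduct_mulVec, k1, h1, h3]; field_simp; ring
  have e2 : α' ᵥ* D'⁻¹ ⬝ᵥ e n F 2 = l := by
    rw [← dotProduct_mulVec, ← hx.shift 1 (by omega), hd'.Di_eq (y := -(x • e n F 1)),
      dotProduct_neg, k2, h1, neg_neg]
    rw [mulVec_neg, hd'.Da, neg_neg]
  rw [e1] at t1 t2
  rw [e2, inv_mul_cancel₀ hl] at t2
  obtain ⟨B, -, b2, b3⟩ := hx.exists_ring m1 (by omega) one_ne_zero t2
  refine b3 (hl' B ?_)
  rw [← inv_inv l]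
  exact inv_mem_subring B ((b2 1 (by omega) _).1 (by simpa using t1))

theorem odd_four (h2 : (2 : F) ≠ 0) : Gen2 4 F := by
  obtain ⟨x, hx, hu⟩ := exists_cyc 4 F (by omega)
  obtain ⟨l, hl, hl'⟩ := exists_gen F
  obtain ⟨α, w, hd, h1, -, h3, -, -⟩ := hx.base (r := 0) (by omega) l
  obtain ⟨D', α', w', hd', k1, -, k3, -⟩ := hd.pert1 (by
    have := hx.φ_pow 0 2 (by omega)
    rwa [pow_two, mul_smul] at this) ((1 - α ⬝ᵥ (Db 4 1 l)⁻¹ *ᵥ w) / (2 * l))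
  refine ⟨x, hd'.z, hu, hd'.regU hu, ?_⟩
  obtain ⟨m1, m2⟩ := mem_pair x hd'.z
  have e1 : α' ᵥ* D'⁻¹ ⬝ᵥ w' = 1 := by
    rw [← dotProduct_mulVec, k1, h1, h3]; field_simp; ring
  obtain ⟨B, -, b2, b3⟩ := hx.gen1 (by omega) m1 m2 hd'.rk2 (by rw [e1]; exact one_ne_zero)
  have := b2 1 (by omega)
  rw [e1, pow_one, pow_one, one_mul, k3, h3] at this
  exact b3 (hl' B (neg_mem_iff.1 this))

theorem even_ge6 (h2 : (2 : F) = 0) (hn : 6 ≤ n) : Gen2c n F := by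
  obtain ⟨x, hx, hu⟩ := exists_cyc n F (by omega)
  obtain ⟨l, hl, hl'⟩ := exists_gen F
  obtain ⟨α, w, hd, h1, h1', h3, h3', -⟩ := hx.base (r := 0) (by omega) l
  have p2 := hx.φ_pow 0 2 (by omega)
  have p3 := hx.φ_pow 0 3 (by omega)
  have p4 := hx.φ_pow 0 4 (by omega)
  simp only [pow_succ', pow_zero, mul_one, mul_smul] at p2 p3 p4
  obtain ⟨D', α', w', hd', k1, k3⟩ := hd.pert2 p2 p3 p4 (by
    rw [hx.shift 0 (by omega), hx.shift _ (by omega)]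
    exact Db_gt l le_rfl (by omega)) h1 h1' h3 h3' ((α ⬝ᵥ (Db n 1 l)⁻¹ *ᵥ w - 1) / l ^ 2)
  have hm : (-1 : F) = 1 := by linear_combination -h2
  obtain ⟨g, hg⟩ := hd'.isConj (s := 1) (by rw [hm, one_pow, one_pow, one_mul])
  refine ⟨x, g, hu, ?_⟩
  rw [hg]
  obtain ⟨m1, m2⟩ := mem_pair x hd'.z
  have e1 : α' ᵥ* D'⁻¹ ⬝ᵥ w' = 1 := by
    rw [← dotProduct_mulVec, k1]; field_simp; ring
  obtain ⟨B, -, b2, b3⟩ := hx.gen1 (by omega) m1 m2 hd'.rk2 (by rw [e1]; exact one_ne_zero)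
  have := b2 1 (by omega)
  rw [e1, pow_one, pow_one, one_mul, k3] at this
  exact b3 (hl' B (neg_mem_iff.1 this))

end L.RU
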