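import Cfsg.Agent.L.RU4

/-!
# `SL_n(q)` is generated by two regular unipotent elements: small cases (`L.RU`)
-/

namespace L.RU

open Matrix L.SR

variable {F : Type*} [Field F]

theorem det_of_cyc {n : ℕ} {M : Matrix (Fin n) (Fin n) F} (k : ℕ) (h : (M - 1) ^ k = 0) :
    M.det = 1 := by
  have h1 := (LinearMap.isNilpotent_iff_charpoly (toLin' (M - 1))).1 ⟨k, by
    rw [← toLin'_pow, h, map_zero]⟩
  rw [← LinearMap.charpoly_toMatrix _ (Pi.basisFun F (Fin n)), LinearMap.toMatrix_eq_toMatrix',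
    LinearMap.toMatrix'_toLin', Module.finrank_fin_fun] at h1
  have h2 := congrArg (Polynomial.eval (-1 : F)) h1
  rw [eval_charpoly, Polynomial.eval_pow, Polynomial.eval_X,
    show scalar (Fin n) (-1 : F) - (M - 1) = -M by rw [map_neg, map_one]; abel, det_neg,
    Fintype.card_fin] at h2
  exact mul_left_cancel₀ (pow_ne_zero n (neg_ne_zero.2 one_ne_zero)) (by rw [h2, mul_one])

theorem cyc_of {n : ℕ} (hn : 1 ≤ n) (M : Matrix (Fin n) (Fin n) F) (h : (M - 1) ^ n = 0)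
    (h1 : ∀ k, k + 1 < n → M *ᵥ e n F k = e n F (k + 1)) {y : Fin n → F} (h2 : M *ᵥ y = e n F 0)
    (h3 : e n F (n - 1) ⬝ᵥ y = 1 ∨ e n F (n - 1) ⬝ᵥ y = -1) :
    ∃ x : SLn n F, x.1 = M ∧ Cyc x ∧ RegU x := by
  obtain ⟨x, rfl⟩ : ∃ x : SLn n F, x.1 = M := ⟨⟨M, det_of_cyc n h⟩, rfl⟩
  have hc : Cyc x := ⟨h1, by rwa [show x⁻¹ • e n F 0 = y from inv_smul_eq_iff.2 h2.symm]⟩
  exact ⟨x, rfl, hc, ⟨n, h⟩, hc.reg hn⟩

theorem e3 : e 3 F 0 = ![1, 0, 0] ∧ e 3 F 1 = ![0, 1, 0] ∧ e 3 F 2 = ![0, 0, 1] := by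
  refine ⟨?_, ?_, ?_⟩ <;> ext i <;> fin_cases i <;> simp [e]

theorem e4 : e 4 F 0 = ![1, 0, 0, 0] ∧ e 4 F 1 = ![0, 1, 0, 0] ∧ e 4 F 2 = ![0, 0, 1, 0] ∧
    e 4 F 3 = ![0, 0, 0, 1] := by
  refine ⟨?_, ?_, ?_, ?_⟩ <;> ext i <;> fin_cases i <;> simp [e]

theorem e5 : e 5 F 0 = ![1, 0, 0, 0, 0] ∧ e 5 F 1 = ![0, 1, 0, 0, 0] ∧
    e 5 F 2 = ![0, 0, 1, 0, 0] ∧ e 5 F 3 = ![0, 0, 0, 1, 0] ∧ e 5 F 4 = ![0, 0, 0, 0, 1] := by
  refine ⟨?_, ?_, ?_, ?_, ?_⟩ <;> ext i <;> fin_cases i <;> simp [e]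

variable (F) in
theorem x3 : ∃ x : SLn 3 F, x.1 = !![0, 0, 1; 1, 0, -3; 0, 1, 3] ∧ Cyc x ∧ RegU x := by
  obtain ⟨a, b, c⟩ := e3 (F := F)
  refine cyc_of (by omega) _ ?_ (fun k hk => ?_) (y := ![3, -3, 1]) ?_ (by simp [c])
  · rw [show (!![0, 0, 1; 1, 0, -3; 0, 1, 3] : Matrix (Fin 3) (Fin 3) F) - 1 =
      !![-1, 0, 1; 1, -1, -3; 0, 1, 2] by
        ext i j; fin_cases i <;> fin_cases j <;> simp <;> ring]
    ext i j
    fin_cases i <;> fin_cases j <;> simp [pow_succ, Matrix.mul_apply, Fin.sum_univ_succ] <;> ring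
  · have : k = 0 ∨ k = 1 := by omega
    rcases this with rfl | rfl <;> simp only [zero_add, Nat.reduceAdd, a, b, c] <;> ext i <;>
      fin_cases i <;> simp [mulVec, dotProduct, Fin.sum_univ_succ]
  · rw [a]; ext i; fin_cases i <;> simp [mulVec, dotProduct, Fin.sum_univ_succ]

variable (F) in
theorem x4 : ∃ x : SLn 4 F, x.1 = !![0, 0, 0, -1; 1, 0, 0, 4; 0, 1, 0, -6; 0, 0, 1, 4] ∧
    Cyc x ∧ RegU x := by
  obtain ⟨a, b, c, d⟩ := e4 (F := F)
  refine cyc_of (by omega) _ ?_ (fun k hk => ?_) (y := ![4, -6, 4, -1]) ?_ (by simp [d])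
  · rw [show (!![0, 0, 0, -1; 1, 0, 0, 4; 0, 1, 0, -6; 0, 0, 1, 4] : Matrix (Fin 4) (Fin 4) F) - 1 =
      !![-1, 0, 0, -1; 1, -1, 0, 4; 0, 1, -1, -6; 0, 0, 1, 3] by
        ext i j; fin_cases i <;> fin_cases j <;> simp <;> ring]
    ext i j
    fin_cases i <;> fin_cases j <;> simp [pow_succ, Matrix.mul_apply, Fin.sum_univ_succ] <;> ring
  · have : k = 0 ∨ k = 1 ∨ k = 2 := by omega
    rcases this with rfl | rfl | rfl <;> simp only [zero_add, Nat.reduceAdd, a, b, c, d] <;>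
      ext i <;> fin_cases i <;> simp [mulVec, dotProduct, Fin.sum_univ_succ]
  · rw [a]; ext i; fin_cases i <;> simp [mulVec, dotProduct, Fin.sum_univ_succ]

variable (F) in
theorem x5 : ∃ x : SLn 5 F, x.1 = !![0, 0, 0, 0, 1; 1, 0, 0, 0, -5; 0, 1, 0, 0, 10;
    0, 0, 1, 0, -10; 0, 0, 0, 1, 5] ∧ Cyc x ∧ RegU x := by
  obtain ⟨a, b, c, d, f⟩ := e5 (F := F)
  refine cyc_of (by omega) _ ?_ (fun k hk => ?_) (y := ![5, -10, 10, -5, 1]) ?_ (by simp [f])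
  · rw [show (!![0, 0, 0, 0, 1; 1, 0, 0, 0, -5; 0, 1, 0, 0, 10;
      0, 0, 1, 0, -10; 0, 0, 0, 1, 5] : Matrix (Fin 5) (Fin 5) F) - 1 =
      !![-1, 0, 0, 0, 1; 1, -1, 0, 0, -5; 0, 1, -1, 0, 10; 0, 0, 1, -1, -10; 0, 0, 0, 1, 4] by
        ext i j; fin_cases i <;> fin_cases j <;> simp <;> ring]
    have h2 : (!![-1, 0, 0, 0, 1; 1, -1, 0, 0, -5; 0, 1, -1, 0, 10; 0, 0, 1, -1, -10; 0, 0, 0, 1, 4] : Matrix (Fin 5) (Fin 5) F) ^ 2 =
        !![1, 0, 0, 1, 3; -2, 1, 0, -5, -14; 1, -2, 1, 10, 25; 0, 1, -2, -9, -20; 0, 0, 1, 3, 6] := by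
      rw [pow_two]
      ext i j; fin_cases i <;> fin_cases j <;> simp [Matrix.mul_apply, Fin.sum_univ_succ] <;> ring
    have h3 : (!![-1, 0, 0, 0, 1; 1, -1, 0, 0, -5; 0, 1, -1, 0, 10; 0, 0, 1, -1, -10; 0, 0, 0, 1, 4] : Matrix (Fin 5) (Fin 5) F) ^ 3 =
        !![-1, 0, 1, 2, 3; 3, -1, -5, -9, -13; -3, 3, 9, 15, 21; 1, -3, -7, -11, -15; 0, 1, 2, 3, 4] := by
      rw [pow_succ, h2]
      ext i j; fin_cases i <;> fin_cases j <;> simp [Matrix.mul_apply, Fin.sum_univ_succ] <;> ring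
    refine (pow_add _ 2 3).trans ?_
    rw [h2, h3]
    ext i j; fin_cases i <;> fin_cases j <;> simp [Matrix.mul_apply, Fin.sum_univ_succ] <;> ring
  · have : k = 0 ∨ k = 1 ∨ k = 2 ∨ k = 3 := by omega
    rcases this with rfl | rfl | rfl | rfl <;>
      simp only [zero_add, Nat.reduceAdd, a, b, c, d, f] <;>
      ext i <;> fin_cases i <;> simp [mulVec, dotProduct, Fin.sum_univ_succ]
  · rw [a]; ext i; fin_cases i <;> simp [mulVec, dotProduct, Fin.sum_univ_succ]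

theorem exists_gen_sq [Finite F] (h2 : (2 : F) ≠ 0) (c : F) :
    ∃ l : F, c + l ^ 2 ≠ 0 ∧ ∀ B : Subring F, l ∈ B → B = ⊤ := by
  obtain ⟨l, -, hl⟩ := exists_gen F
  by_cases h0 : c + l ^ 2 = 0
  · by_cases h1 : c + (l + 1) ^ 2 = 0
    · refine ⟨l + 1 + 1, fun h => h2 (by linear_combination h0 - 2 * h1 + h), fun B hB => hl B ?_⟩
      simpa using sub_mem (sub_mem hB (one_mem B)) (one_mem B)
    · exact ⟨l + 1, h1, fun B hB => hl B (by simpa using sub_mem hB (one_mem B))⟩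
  · exact ⟨l, h0, hl⟩

theorem odd_three [Finite F] (h2 : (2 : F) ≠ 0) : Gen2c 3 F := by
  obtain ⟨x, hx1, hx, hu⟩ := x3 F
  obtain ⟨a, b, c⟩ := e3 (F := F)
  obtain ⟨l, hl, hl'⟩ := exists_gen_sq h2 (12 : F)
  have hD : (!![1, 0, 0; 0, -1, -l; 0, 0, -1] : Matrix (Fin 3) (Fin 3) F).det = 1 := by
    simp [det_fin_three]
  obtain ⟨z, hz, hr⟩ := of_mat x (hD ▸ isUnit_one) (v := e 3 F 0)
    (ψ := ![-2, l, -6 + 3 * l - l ^ 2]) (w := ![0, 6 - l, -2]) (φ := e 3 F 2) (by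
      rw [hx1, a, c, show 1 + vecMulVec ![1, 0, 0] ![-2, l, -6 + 3 * l - l ^ 2] +
        vecMulVec ![0, 6 - l, -2] ![0, 0, 1] =
        !![-1, l, -6 + 3 * l - l ^ 2; 0, 1, 6 - l; 0, 0, -1] by
          ext i j; fin_cases i <;> fin_cases j <;> simp [vecMulVec_apply, one_apply] <;> ring]
      ext i j
      fin_cases i <;> fin_cases j <;> simp [Matrix.mul_apply, Fin.sum_univ_succ] <;> ring)
    (by simp [a]) (by simp [c]) (by simp [a, c])
  obtain ⟨g, hg⟩ := conj_of hz (s := 1) (by rw [hD]; simp)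
  refine ⟨x, g, hu, ?_⟩
  rw [hg]
  obtain ⟨m1, m2⟩ := mem_pair x z
  have e1 : (![-2, l, -6 + 3 * l - l ^ 2] : Fin 3 → F) ⬝ᵥ ![0, 6 - l, -2] = 12 + l ^ 2 := by
    simp; ring
  obtain ⟨B, b1, b2, b3⟩ := hx.gen1 le_rfl m1 m2 hr (by rwa [e1])
  have b4 := b2 1 le_rfl
  have e2 : e 3 F (3 - 1) ⬝ᵥ x ^ 1 • ![0, 6 - l, -2] = -l := by
    rw [pow_one, smul_eq, hx1, show 3 - 1 = 2 from rfl, c]
    simp [mulVec, dotProduct, Fin.sum_univ_succ]; ring
  rw [e1, e2, pow_one, mul_neg, neg_mem_iff] at b4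
  rw [e1] at b1
  refine b3 (hl' B ?_)
  by_cases h3 : (3 : F) = 0
  · refine mem_of_pow_char Nat.prime_three (by simpa using h3) B ?_
    convert b4 using 1
    linear_combination (-4 * l) * h3
  · have h12 : (12 : F) ≠ 0 := by
      rw [show (12 : F) = 2 * 2 * 3 by norm_num]; exact mul_ne_zero (mul_ne_zero h2 h2) h3
    have k2 : (12 + l ^ 2) ^ 2 ∈ B := by
      have := mul_mem (inv_mem_subring B (natCast_mem B 12)) (sub_mem b1 (pow_mem b4 2))
      convert this using 1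
      push_cast; field_simp; ring
    have k1 : 12 + l ^ 2 ∈ B := by
      have := mul_mem b1 (inv_mem_subring B k2)
      convert this using 1
      field_simp
    have := mul_mem b4 (inv_mem_subring B k1)
    convert this using 1
    field_simp

theorem even_four [Finite F] (h2 : (2 : F) = 0) : Gen2c 4 F := by
  obtain ⟨x, hx1, hx, hu⟩ := x4 F
  obtain ⟨a, b, c, d⟩ := e4 (F := F)
  obtain ⟨l, hl, hl'⟩ := exists_gen F
  have hD : (!![1, 0, 0, 0; 0, -1, -l, 0; 0, 0, -1, -l; 0, 0, 0, -1] :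
      Matrix (Fin 4) (Fin 4) F).det = -1 := by
    simp [det_succ_column_zero, Fin.sum_univ_succ, Fin.succAbove]
  obtain ⟨z, hz, hr⟩ := of_mat x (hD ▸ isUnit_one.neg) (v := e 4 F 0)
    (ψ := ![-2, l, -l ^ 2, 8 - 6 * l + l ^ 3]) (w := ![0, -12 + 4 * l, 8 - l, -2]) (φ := e 4 F 3) (by
      rw [hx1, a, d, show 1 + vecMulVec ![1, 0, 0, 0] ![-2, l, -l ^ 2, 8 - 6 * l + l ^ 3] +
        vecMulVec ![0, -12 + 4 * l, 8 - l, -2] ![0, 0, 0, 1] =
        !![-1, l, -l ^ 2, 8 - 6 * l + l ^ 3; 0, 1, 0, -12 + 4 * l; 0, 0, 1, 8 - l; 0, 0, 0, -1] by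
          ext i j; fin_cases i <;> fin_cases j <;> simp [vecMulVec_apply, one_apply] <;> ring]
      ext i j
      fin_cases i <;> fin_cases j <;> simp [Matrix.mul_apply, Fin.sum_univ_succ] <;> ring)
    (by simp [a]) (by simp [d]) (by simp [a, d])
  obtain ⟨g, hg⟩ := conj_of hz (s := 1) (by rw [hD]; linear_combination -h2)
  refine ⟨x, g, hu, ?_⟩
  rw [hg]
  obtain ⟨m1, m2⟩ := mem_pair x z
  have e1 : (![-2, l, -l ^ 2, 8 - 6 * l + l ^ 3] : Fin 4 → F) ⬝ᵥ ![0, -12 + 4 * l, 8 - l, -2] =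
      l ^ 3 := by
    simp; linear_combination (-8 - 2 * l ^ 2 - l ^ 3) * h2
  obtain ⟨B, -, b2, b3⟩ := hx.gen1 (by omega) m1 m2 hr (by rw [e1]; exact pow_ne_zero _ hl)
  have b4 := b2 1 (by omega)
  have e2 : e 4 F (4 - 1) ⬝ᵥ x ^ 1 • ![0, -12 + 4 * l, 8 - l, -2] = -l := by
    rw [pow_one, smul_eq, hx1, show 4 - 1 = 3 from rfl, d]
    simp [mulVec, dotProduct, Fin.sum_univ_succ]; ring
  rw [e1, e2, pow_one, mul_neg, neg_mem_iff] at b4
  refine b3 (hl' B (mem_of_pow_char Nat.prime_two (by simpa using h2) B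
    (mem_of_pow_char Nat.prime_two (by simpa using h2) B ?_)))
  convert b4 using 1; ring

theorem even_five [Finite F] (h2 : (2 : F) = 0) : Gen2c 5 F := by
  obtain ⟨x, hx1, hx, hu⟩ := x5 F
  obtain ⟨a, b, c, d, f⟩ := e5 (F := F)
  obtain ⟨l, hl, hl'⟩ := exists_gen F
  have hD : (!![1, 0, 0, 0, 0; 0, -1, 0, -1, -l; 0, 0, -1, 0, -1; 0, 0, 0, -1, 0; 0, 0, 0, 0, -1] :
      Matrix (Fin 5) (Fin 5) F).det = 1 := by
    simp [det_succ_column_zero, Fin.sum_univ_succ, Fin.succAbove]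
  obtain ⟨z, hz, hr⟩ := of_mat x (hD ▸ isUnit_one) (v := e 5 F 0)
    (ψ := ![-2, 0, 1, l, -21 + 5 * l]) (w := ![0, 25 - l, -21, 10, -2]) (φ := e 5 F 4) (by
      rw [hx1, a, f, show 1 + vecMulVec ![1, 0, 0, 0, 0] ![-2, 0, 1, l, -21 + 5 * l] +
        vecMulVec ![0, 25 - l, -21, 10, -2] ![0, 0, 0, 0, 1] =
        !![-1, 0, 1, l, -21 + 5 * l; 0, 1, 0, 0, 25 - l; 0, 0, 1, 0, -21; 0, 0, 0, 1, 10;
          0, 0, 0, 0, -1] by
          ext i j; fin_cases i <;> fin_cases j <;> simp [vecMulVec_apply, one_apply] <;> ring]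
      ext i j
      fin_cases i <;> fin_cases j <;> simp [Matrix.mul_apply, Fin.sum_univ_succ] <;> ring)
    (by simp [a]) (by simp [f]) (by simp [a, f])
  obtain ⟨g, hg⟩ := conj_of hz (s := 1) (by rw [hD]; simp)
  refine ⟨x, g, hu, ?_⟩
  rw [hg]
  obtain ⟨m1, m2⟩ := mem_pair x z
  have e1 : (![-2, 0, 1, l, -21 + 5 * l] : Fin 5 → F) ⬝ᵥ ![0, 25 - l, -21, 10, -2] = 1 := by
    simp; linear_combination 10 * h2
  obtain ⟨B, -, b2, b3⟩ := hx.gen1 (by omega) m1 m2 hr (by rw [e1]; exact one_ne_zero)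
  have b4 := b2 3 (by omega)
  have e2 : e 5 F (5 - 1) ⬝ᵥ x ^ 3 • ![0, 25 - l, -21, 10, -2] = -l := by
    rw [pow_succ, pow_two, mul_smul, mul_smul, smul_eq, smul_eq, smul_eq, hx1,
      show 5 - 1 = 4 from rfl, f]
    simp [mulVec, dotProduct, Fin.sum_univ_succ]; ring
  rw [e1, e2, one_pow, one_mul, neg_mem_iff] at b4
  exact b3 (hl' B b4)

theorem four_two {x : SLn 4 F} (hx1 : x.1 = !![0, 0, 0, -1; 1, 0, 0, 4; 0, 1, 0, -6; 0, 0, 1, 4])
    (hx : Cyc x) (l : F) : ∃ g : SLn 4 F, ∀ G : Subgroup (SLn 4 F), x ∈ G → g * x * g⁻¹ ∈ G →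
      T x 1 0 (24 + l ^ 2) ∈ G ∧ T x 0 0 ((24 + l ^ 2) * l) ∈ G := by
  obtain ⟨a, b, c, d⟩ := e4 (F := F)
  have hD : (!![1, 0, 0, 0; 0, 1, 0, 0; 0, 0, -1, -l; 0, 0, 0, -1] :
      Matrix (Fin 4) (Fin 4) F).det = 1 := by
    simp [det_succ_column_zero, Fin.sum_univ_succ, Fin.succAbove]
  obtain ⟨z, hz, hr⟩ := of_mat x (hD ▸ isUnit_one) (v := e 4 F 1)
    (ψ := ![0, -2, l, -12 + 4 * l - l ^ 2]) (w := ![0, 0, 8 - l, -2]) (φ := e 4 F 3) (by
      rw [hx1, b, d, show 1 + vecMulVec ![0, 1, 0, 0] ![0, -2, l, -12 + 4 * l - l ^ 2] +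
        vecMulVec ![0, 0, 8 - l, -2] ![0, 0, 0, 1] =
        !![1, 0, 0, 0; 0, -1, l, -12 + 4 * l - l ^ 2; 0, 0, 1, 8 - l; 0, 0, 0, -1] by
          ext i j; fin_cases i <;> fin_cases j <;> simp [vecMulVec_apply, one_apply] <;> ring]
      ext i j
      fin_cases i <;> fin_cases j <;> simp [Matrix.mul_apply, Fin.sum_univ_succ] <;> ring)
    (by simp [b]) (by simp [d]) (by simp [b, d])
  obtain ⟨g, hg⟩ := conj_of hz (s := 1) (by rw [hD]; simp)
  refine ⟨g, fun G m1 m2 => ?_⟩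
  rw [hg] at m2
  have e1 : (![0, -2, l, -12 + 4 * l - l ^ 2] : Fin 4 → F) ⬝ᵥ ![0, 0, 8 - l, -2] = 24 + l ^ 2 := by
    simp; ring
  have := hx.gen2 le_rfl m1 (mul_mem (inv_mem m1) m2) hr (by
    rw [show x⁻¹ • ![0, 0, 8 - l, -2] = ![0, 8 - l, -2, 0] from inv_smul_eq_iff.2 (by
      rw [smul_eq, hx1]; ext i; fin_cases i <;> simp [mulVec, dotProduct, Fin.sum_univ_succ]),
      show 4 - 1 = 3 from rfl, d]
    simp)
  rw [e1, c] at this
  simpa using this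

theorem exists_nat (h2 : (2 : F) ≠ 0) : ∃ k : ℕ, ((24 + (k : F) ^ 2) * k) ≠ 0 := by
  by_cases h5 : (5 : F) = 0
  · refine ⟨2, mul_ne_zero (fun h => h2 ?_) (by simpa using h2)⟩
    push_cast at h
    linear_combination 6 * h5 - h
  · refine ⟨1, mul_ne_zero (fun h => mul_ne_zero h5 h5 ?_) (by simp)⟩
    push_cast at h
    linear_combination h

theorem prime_four [Fintype F] (h2 : (2 : F) ≠ 0) (hp : (Fintype.card F).Prime) : Gen2c 4 F := by
  obtain ⟨x, hx1, hx, hu⟩ := x4 F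
  obtain ⟨k, hk⟩ := exists_nat h2
  obtain ⟨g, hg⟩ := four_two hx1 hx (k : F)
  refine ⟨x, g, hu, ?_⟩
  have m1 : x ∈ Subgroup.closure ({x, g * x * g⁻¹} : Set (SLn 4 F)) :=
    Subgroup.subset_closure (by simp)
  obtain ⟨B, -, -, b3⟩ := hx.exists_ring m1 (by omega) hk
    (hg _ m1 (Subgroup.subset_closure (by simp))).2
  refine b3 ?_
  have : Fact (Nat.card F).Prime := ⟨by rwa [Nat.card_eq_fintype_card]⟩
  rcases B.toAddSubgroup.eq_bot_or_eq_top_of_prime_card with h | h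
  · have h1 : (1 : F) ∈ B.toAddSubgroup := one_mem B
    rw [h] at h1
    exact absurd (AddSubgroup.mem_bot.1 h1) one_ne_zero
  · exact eq_top_iff.2 fun s _ => (h ▸ AddSubgroup.mem_top s : s ∈ B.toAddSubgroup)

theorem three_four [Finite F] (h2 : (2 : F) ≠ 0) : ∃ u g h : SLn 4 F, RegU u ∧
    Subgroup.closure ({u, g * u * g⁻¹, h * u * h⁻¹} : Set (SLn 4 F)) = ⊤ := by
  obtain ⟨x, hx1, hx, hu⟩ := x4 F
  obtain ⟨k, hk⟩ := exists_nat h2
  obtain ⟨g, hg⟩ := four_two hx1 hx (k : F)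
  obtain ⟨l, hl, hl'⟩ := exists_gen_sq h2 (24 : F)
  obtain ⟨h, hh⟩ := four_two hx1 hx l
  refine ⟨x, g, h, hu, ?_⟩
  have m1 : x ∈ Subgroup.closure ({x, g * x * g⁻¹, h * x * h⁻¹} : Set (SLn 4 F)) :=
    Subgroup.subset_closure (by simp)
  obtain ⟨B, -, b2, b3⟩ := hx.exists_ring m1 (by omega) hk
    (hg _ m1 (Subgroup.subset_closure (by simp))).2
  obtain ⟨t1, t2⟩ := hh _ m1 (Subgroup.subset_closure (by simp))
  have ha : (24 + (k : F) ^ 2) * k ∈ B :=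
    mul_mem (add_mem (by simpa using natCast_mem B 24) (pow_mem (natCast_mem B k) 2))
      (natCast_mem B k)
  generalize (24 + (k : F) ^ 2) * k = a at hk ha b2
  have k1 : 24 + l ^ 2 ∈ B := by
    have := mul_mem (pow_mem ha 2) ((b2 1 (by omega) ((a ^ 2)⁻¹ * (24 + l ^ 2))).1 (by
      rwa [mul_inv_cancel_left₀ (pow_ne_zero _ hk)]))
    rwa [mul_inv_cancel_left₀ (pow_ne_zero _ hk)] at this
  have k2 : (24 + l ^ 2) * l ∈ B := by
    have := mul_mem ha ((b2 0 (by omega) (a⁻¹ * ((24 + l ^ 2) * l))).1 (by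
      rwa [zero_add, pow_one, mul_inv_cancel_left₀ hk]))
    rwa [mul_inv_cancel_left₀ hk] at this
  have := mul_mem (inv_mem_subring B k1) k2
  rw [inv_mul_cancel_left₀ hl] at this
  exact b3 (hl' B this)

theorem even_three [Finite F] (h2 : (2 : F) = 0) : Gen2c 3 F := by
  obtain ⟨a, ha, ha'⟩ : ∃ a : F, a ≠ 0 ∧ ∀ s, s ≠ 0 → ∃ k, s = a ^ k := by
    obtain ⟨g, hg⟩ := IsCyclic.exists_monoid_generator (α := Fˣ)
    refine ⟨g, g.ne_zero, fun s h0 => ?_⟩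
    obtain ⟨k, hk⟩ := hg (Units.mk0 s h0)
    exact ⟨k, by rw [← Units.val_pow_eq_pow_val]; exact (congrArg Units.val hk).symm⟩
  obtain ⟨x, hx⟩ : ∃ x : SLn 3 F, x.1 = !![1, a, 0; 0, 1, 1; 0, 0, 1] :=
    ⟨⟨_, by simp [det_fin_three]⟩, rfl⟩
  obtain ⟨g, hg⟩ : ∃ x : SLn 3 F, x.1 = !![0, 0, 1; 1, 0, 0; 0, 1, 0] :=
    ⟨⟨_, by simp [det_fin_three]⟩, rfl⟩
  obtain ⟨z, hz⟩ : ∃ x : SLn 3 F, x.1 = !![1, 0, 0; 0, 1, a; 1, 0, 1] :=
    ⟨⟨_, by simp [det_fin_three]⟩, rfl⟩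
  have hN : x.1 - 1 = !![0, a, 0; 0, 0, 1; 0, 0, 0] := by
    rw [hx]; ext i j; fin_cases i <;> fin_cases j <;> simp
  refine ⟨x, g, ⟨⟨3, ?_⟩, fun h => ha ?_⟩, ?_⟩
  · rw [hN]; ext i j
    fin_cases i <;> fin_cases j <;> simp [pow_succ, Matrix.mul_apply, Fin.sum_univ_succ]
  · have := congrFun (congrFun h 0) 2
    rw [hN] at this
    simpa [pow_succ, Matrix.mul_apply, Fin.sum_univ_succ] using this
  have hc : g * x * g⁻¹ = z := mul_inv_eq_iff_eq_mul.2 (Subtype.ext (by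
    change g.1 * x.1 = z.1 * g.1
    rw [hx, hg, hz]; simp))
  rw [hc]
  set G := Subgroup.closure ({x, z} : Set (SLn 3 F))
  have mx : x ∈ G := Subgroup.subset_closure (by simp)
  have mz : z ∈ G := Subgroup.subset_closure (by simp)
  let X : ∀ i j : Fin 3, i ≠ j → F → SLn 3 F := fun i j h s =>
    Matrix.SpecialLinearGroup.transvection h s
  have hX : ∀ i j h s, (X i j h s).1 = 1 + single i j s := fun i j h s =>
    Matrix.SpecialLinearGroup.transvection_coe h s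
  have com : ∀ {i j k} (hij : i ≠ j) (hik : i ≠ k) (hkj : k ≠ j) (s t : F), X i k hik s ∈ G →
      X k j hkj t ∈ G → X i j hij (s * t) ∈ G := fun hij hik hkj s t h1 h3 => by
    have := H09.transvection_commutator hij hik hkj s t
    change _ = X _ _ hij (s * t) at this
    rw [← this, commutatorElement_def]
    exact mul_mem (mul_mem (mul_mem h1 h3) (inv_mem h1)) (inv_mem h3)
  have v02 : ∀ s, (X 0 2 (by decide) s).1 = !![1, 0, s; 0, 1, 0; 0, 0, 1] := fun s => by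
    rw [hX]; ext i j; fin_cases i <;> fin_cases j <;> simp
  have v12 : ∀ s, (X 1 2 (by decide) s).1 = !![1, 0, 0; 0, 1, s; 0, 0, 1] := fun s => by
    rw [hX]; ext i j; fin_cases i <;> fin_cases j <;> simp
  have v10 : ∀ s, (X 1 0 (by decide) s).1 = !![1, 0, 0; s, 1, 0; 0, 0, 1] := fun s => by
    rw [hX]; ext i j; fin_cases i <;> fin_cases j <;> simp
  have v01 : ∀ s, (X 0 1 (by decide) s).1 = !![1, s, 0; 0, 1, 0; 0, 0, 1] := fun s => by
    rw [hX]; ext i j; fin_cases i <;> fin_cases j <;> simp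
  have v20 : ∀ s, (X 2 0 (by decide) s).1 = !![1, 0, 0; 0, 1, 0; s, 0, 1] := fun s => by
    rw [hX]; ext i j; fin_cases i <;> fin_cases j <;> simp
  have h11 : (1 : F) + 1 = 0 := by linear_combination h2
  have haa : a + a = 0 := by linear_combination a * h2
  have a02 : X 0 2 (by decide) a ∈ G := by
    rw [show X 0 2 (by decide) a = x * x from Subtype.ext (by
      change _ = x.1 * x.1
      rw [v02, hx]; simp [h11, haa])]
    exact mul_mem mx mx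
  have a10 : X 1 0 (by decide) a ∈ G := by
    rw [show X 1 0 (by decide) a = z * z from Subtype.ext (by
      change _ = z.1 * z.1
      rw [v10, hz]; simp [h11, haa])]
    exact mul_mem mz mz
  have s1 : ∀ s, X 1 2 (by decide) s ∈ G → X 0 2 (by decide) (a * s) ∈ G := fun s hs => by
    have : X 0 2 (by decide) (a * s) * (X 1 2 (by decide) s * x) = x * X 1 2 (by decide) s :=
      Subtype.ext (by
        change (X 0 2 _ _).1 * ((X 1 2 _ _).1 * x.1) = x.1 * (X 1 2 _ _).1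
        rw [v02, v12, hx]; simp [add_comm])
    exact (G.mul_mem_cancel_right (mul_mem hs mx)).1 (this ▸ mul_mem mx hs)
  have s2 : ∀ s, X 1 2 (by decide) s ∈ G → X 1 0 (by decide) s ∈ G := fun s hs => by
    have : X 1 0 (by decide) s * (z * X 1 2 (by decide) s) = X 1 2 (by decide) s * z :=
      Subtype.ext (by
        change (X 1 0 _ _).1 * (z.1 * (X 1 2 _ _).1) = (X 1 2 _ _).1 * z.1
        rw [v10, v12, hz]; simp [add_comm])
    exact (G.mul_mem_cancel_right (mul_mem mz hs)).1 (this ▸ mul_mem hs mz)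
  have a12 : ∀ s, X 1 2 (by decide) s ∈ G := fun s => by
    rcases eq_or_ne s 0 with rfl | h0
    · rw [show X 1 2 (by decide) 0 = 1 from Matrix.SpecialLinearGroup.transvection_coeff_zero _]
      exact one_mem _
    obtain ⟨k, hk⟩ := ha' (s / (a * a)) (div_ne_zero h0 (mul_ne_zero ha ha))
    rw [show s = a * a * a ^ k by rw [← hk]; field_simp]
    clear hk
    induction k with
    | zero => simpa using com _ _ _ _ _ a10 a02
    | succ k ih => rw [pow_succ, ← mul_assoc]; exact com _ _ _ _ _ (s2 _ ih) a02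
  have b02 : ∀ s, X 0 2 (by decide) s ∈ G := fun s => by
    have := s1 (a⁻¹ * s) (a12 _)
    rwa [mul_inv_cancel_left₀ ha] at this
  have a01 : X 0 1 (by decide) a ∈ G := by
    have : X 0 1 (by decide) a * X 1 2 (by decide) 1 = X 0 2 (by decide) a * x :=
      Subtype.ext (by
        change (X 0 1 _ _).1 * (X 1 2 _ _).1 = (X 0 2 _ _).1 * x.1
        rw [v02, v12, v01, hx]; simp)
    exact (G.mul_mem_cancel_right (a12 1)).1 (this ▸ mul_mem a02 mx)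
  have a20 : X 2 0 (by decide) 1 ∈ G := by
    have : X 1 2 (by decide) a * X 2 0 (by decide) 1 = X 1 0 (by decide) a * z :=
      Subtype.ext (by
        change (X 1 2 _ _).1 * (X 2 0 _ _).1 = (X 1 0 _ _).1 * z.1
        rw [v10, v12, v20, hz]; simp)
    exact (G.mul_mem_cancel_left (a12 a)).1 (this ▸ mul_mem a10 mz)
  have a21 : X 2 1 (by decide) (1 * a) ∈ G := com _ _ _ _ _ a20 a01
  rw [one_mul] at a21
  have b01 : ∀ s, X 0 1 (by decide) s ∈ G := fun s => by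
    have := com (by decide) _ _ _ _ (b02 (s / a)) a21
    rwa [div_mul_cancel₀ _ ha] at this
  refine H09.eq_top_of_transvection_mem G fun i j hij s => ?_
  change X i j hij s ∈ G
  fin_cases i <;> fin_cases j <;> first | exact absurd rfl hij | skip
  · exact b01 s
  · exact b02 s
  · exact s2 s (a12 s)
  · exact a12 s
  · have := com (by decide) _ _ _ _ a21 (s2 _ (a12 (a⁻¹ * s)))
    rwa [mul_inv_cancel_left₀ ha] at this
  · have := com (by decide) _ _ _ _ a20 (b01 s)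
    rwa [one_mul] at this

theorem gen2c_three [Finite F] : Gen2c 3 F :=
  (em ((2 : F) = 0)).elim even_three odd_three

theorem gen2c [Finite F] {n : ℕ} (hn : 3 ≤ n) (h : n = 4 → (2 : F) = 0) : Gen2c n F := by
  rcases hn.eq_or_lt with rfl | h3
  · exact gen2c_three
  by_cases h4 : n = 4
  · subst h4; exact even_four (h rfl)
  by_cases h2 : (2 : F) = 0
  · by_cases h5 : n = 5
    · subst h5; exact even_five h2
    · exact even_ge6 h2 (by omega)
  · exact odd_ge5 h2 (by omega)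

end L.RU
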